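import Mathlib

/-!
# Avoiding finitely many proper subspaces over a small field

A vector space over a field with at least `m` elements is not the union of `m` proper
subspaces.  Consequences used for the factorisation of a matrix into two regular unipotent
matrices: a functional with prescribed nonvanishing, and a vector which is not an eigenvector
and avoids up to three hyperplanes.
-/

set_option autoImplicit false

namespace Cfsg.Agent.Lib.Helper16.RegUni

open Module

variable {K : Type*} [Field K] {V : Type*} [AddCommGroup V] [Module K V]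

/-- Sharp covering lemma: `m` distinct scalars, `m` proper subspaces. -/
theorem exists_notMem_of_injective : ∀ (m : ℕ) (c : Fin m → K), Function.Injective c →
    ∀ (A : Fin m → Submodule K V), (∀ i, A i ≠ ⊤) → ∃ v : V, ∀ i, v ∉ A i := by
  intro m
  induction m with
  | zero => intro c _ A _; exact ⟨0, fun i => i.elim0⟩
  | succ m ih =>
    intro c hc A hA
    obtain ⟨v, hv⟩ := ih (fun i => c i.castSucc)
      (fun i j h => Fin.castSucc_injective _ (hc h)) (fun i => A i.castSucc) (fun i => hA _)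
    by_cases hvm : v ∉ A (Fin.last m)
    · refine ⟨v, fun i => ?_⟩
      induction i using Fin.lastCases with
      | last => exact hvm
      | cast i => exact hv i
    · push Not at hvm
      obtain ⟨u, hu⟩ : ∃ u, u ∉ A (Fin.last m) := by
        by_contra h; push Not at h; exact hA _ (eq_top_iff.2 fun x _ => h x)
      by_contra hall
      push Not at hall
      have key : ∀ j : Fin (m + 1), ∃ i : Fin m, u + c j • v ∈ A i.castSucc := by
        intro j
        obtain ⟨i, hi⟩ := hall (u + c j • v)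
        induction i using Fin.lastCases with
        | last =>
          exact absurd ((Submodule.add_mem_iff_left _ (Submodule.smul_mem _ _ hvm)).1 hi) hu
        | cast i => exact ⟨i, hi⟩
      choose g hg using key
      obtain ⟨j, j', hne, heq⟩ := Fintype.exists_ne_map_eq_of_card_lt g (by simp)
      have h1 := hg j
      have h2 := hg j'
      rw [heq] at h1
      have h3 : (c j - c j') • v ∈ A (g j').castSucc := by
        have := Submodule.sub_mem _ h1 h2
        simpa [sub_smul] using this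
      have hcne : c j - c j' ≠ 0 := sub_ne_zero.2 (fun h => hne (hc h))
      exact hv (g j') ((Submodule.smul_mem_iff _ hcne).1 h3)

/-- Four proper subspaces do not cover, if the field has four elements. -/
theorem cover4 (hK : ∃ c : Fin 4 → K, Function.Injective c) (A B C D : Submodule K V)
    (hA : A ≠ ⊤) (hB : B ≠ ⊤) (hC : C ≠ ⊤) (hD : D ≠ ⊤) :
    ∃ v, v ∉ A ∧ v ∉ B ∧ v ∉ C ∧ v ∉ D := by
  obtain ⟨c, hc⟩ := hK
  obtain ⟨v, hv⟩ := exists_notMem_of_injective 4 c hc ![A, B, C, D] (by
    intro i; fin_cases i <;> simpa)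
  exact ⟨v, hv 0, hv 1, hv 2, hv 3⟩

/-- In the plane spanned by `p` and `q`, four subspaces not containing the plane are avoided. -/
theorem plane4 (hK : ∃ c : Fin 4 → K, Function.Injective c) (p q : V)
    (A B C D : Submodule K V) (hA : p ∉ A ∨ q ∉ A) (hB : p ∉ B ∨ q ∉ B)
    (hC : p ∉ C ∨ q ∉ C) (hD : p ∉ D ∨ q ∉ D) :
    ∃ a s : K, a • p + s • q ∉ A ∧ a • p + s • q ∉ B ∧ a • p + s • q ∉ C ∧
      a • p + s • q ∉ D := by
  let L : K × K →ₗ[K] V :=
    (LinearMap.fst K K K).smulRight p + (LinearMap.snd K K K).smulRight q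
  have hL : ∀ x : K × K, L x = x.1 • p + x.2 • q := fun x => by simp [L]
  have hne : ∀ Z : Submodule K V, (p ∉ Z ∨ q ∉ Z) → Z.comap L ≠ ⊤ := by
    intro Z hZ htop
    have h1 : L (1, 0) ∈ Z := by
      have : ((1 : K), (0 : K)) ∈ Z.comap L := by rw [htop]; trivial
      exact this
    have h2 : L (0, 1) ∈ Z := by
      have : ((0 : K), (1 : K)) ∈ Z.comap L := by rw [htop]; trivial
      exact this
    rw [hL] at h1 h2
    simp only [one_smul, zero_smul, add_zero, zero_add] at h1 h2
    rcases hZ with h | h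
    · exact h h1
    · exact h h2
  obtain ⟨x, h1, h2, h3, h4⟩ := cover4 hK _ _ _ _ (hne A hA) (hne B hB) (hne C hC) (hne D hD)
  refine ⟨x.1, x.2, ?_, ?_, ?_, ?_⟩
  · rw [← hL]; exact h1
  · rw [← hL]; exact h2
  · rw [← hL]; exact h3
  · rw [← hL]; exact h4

/-- A functional vanishing on `U` and nonzero at four given vectors outside `U`. -/
theorem choose_psi (hK : ∃ c : Fin 4 → K, Function.Injective c) (U : Submodule K V)
    (x₁ x₂ x₃ x₄ : V) (h₁ : x₁ ∉ U) (h₂ : x₂ ∉ U) (h₃ : x₃ ∉ U) (h₄ : x₄ ∉ U) :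
    ∃ ψ : Module.Dual K V, (∀ u ∈ U, ψ u = 0) ∧ ψ x₁ ≠ 0 ∧ ψ x₂ ≠ 0 ∧ ψ x₃ ≠ 0 ∧ ψ x₄ ≠ 0 := by
  let Z : V → Submodule K U.dualAnnihilator := fun x =>
    LinearMap.ker ((Module.Dual.eval K V x) ∘ₗ U.dualAnnihilator.subtype)
  have hZ : ∀ x, x ∉ U → Z x ≠ ⊤ := by
    intro x hx htop
    obtain ⟨f, hfx, hf⟩ := Submodule.exists_le_ker_of_notMem hx
    have hfU : f ∈ U.dualAnnihilator := by
      rw [Submodule.mem_dualAnnihilator]
      intro w hw
      exact hf hw
    have : (⟨f, hfU⟩ : U.dualAnnihilator) ∈ Z x := by rw [htop]; trivial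
    simp only [Z, LinearMap.mem_ker, LinearMap.coe_comp, Function.comp_apply,
      Submodule.subtype_apply, Module.Dual.eval_apply] at this
    exact hfx this
  obtain ⟨ψ, k1, k2, k3, k4⟩ :=
    cover4 (V := U.dualAnnihilator) hK (Z x₁) (Z x₂) (Z x₃) (Z x₄)
      (hZ _ h₁) (hZ _ h₂) (hZ _ h₃) (hZ _ h₄)
  have hmem : ∀ x, ψ ∉ Z x → (ψ : Module.Dual K V) x ≠ 0 := by
    intro x hx h0
    apply hx
    simp only [Z, LinearMap.mem_ker, LinearMap.coe_comp, Function.comp_apply,
      Submodule.subtype_apply, Module.Dual.eval_apply]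
    exact h0
  refine ⟨ψ, ?_, hmem _ k1, hmem _ k2, hmem _ k3, hmem _ k4⟩
  intro u hu
  exact (Submodule.mem_dualAnnihilator _).1 ψ.2 u hu

/-- Four distinct scalars from the cardinality bound. -/
theorem four_scalars (hK : 4 ≤ Cardinal.mk K) : ∃ c : Fin 4 → K, Function.Injective c := by
  have h : Cardinal.lift.{_, 0} (Cardinal.mk (Fin 4)) ≤ Cardinal.lift.{0, _} (Cardinal.mk K) := by
    simpa using hK
  obtain ⟨f⟩ := Cardinal.lift_mk_le'.1 h
  exact ⟨f, f.injective⟩

end Cfsg.Agent.Lib.Helper16.RegUni
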