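import Mathlib

/-!
# A determinant computation in dimension three

If `T` has determinant one on a three-dimensional space and `D = T - 1` satisfies
`D (D e) = l • T e`, then the image of `D` lies in the plane spanned by `e` and `D e`.
-/

set_option autoImplicit false

namespace Cfsg.Agent.Lib.Helper16.RegUni

open Module

variable {K : Type*} [Field K] {V : Type*} [AddCommGroup V] [Module K V]

theorem finrank_span_pair_le [FiniteDimensional K V] (a b : V) :
    finrank K (Submodule.span K ({a, b} : Set V)) ≤ 2 := by
  classical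
  have h := finrank_span_finset_le_card (R := K) ({a, b} : Finset V)
  rw [Finset.coe_pair] at h
  exact h.trans Finset.card_le_two

theorem det3_range [FiniteDimensional K V] (h3 : finrank K V = 3) (T : V →ₗ[K] V)
    (hdet : LinearMap.det T = 1) (e : V) (hne : ∀ c : K, T e ≠ c • e) (l : K)
    (hl : T (T e - e) - (T e - e) = l • T e) :
    ∀ v, T v - v ∈ Submodule.span K ({e, T e - e} : Set V) := by
  set d := T e - e with hd
  have he0 : e ≠ 0 := fun h => hne 0 (by rw [h, map_zero, smul_zero])
  have hTe : T e = e + d := by rw [hd]; abel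
  have hTd : T d = l • e + (1 + l) • d := by
    have : T d = d + l • T e := by rw [← hl]; abel
    rw [this, hTe, smul_add, add_smul, one_smul]; abel
  have hli2 : LinearIndependent K ![e, d] := by
    rw [LinearIndependent.pair_iff' he0]
    intro a ha
    apply hne (a + 1)
    rw [add_smul, one_smul, ha, hd]; abel
  obtain ⟨z, hli3⟩ := exists_linearIndependent_cons_of_lt_finrank hli2 (by omega)
  let b : Basis (Fin 3) K V := basisOfLinearIndependentOfCardEqFinrank hli3 (by simp [h3])
  have hb : ⇑b = Fin.cons z ![e, d] := coe_basisOfLinearIndependentOfCardEqFinrank _ _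
  have hb0 : b 0 = z := by rw [hb]; rfl
  have hb1 : b 1 = e := by rw [hb]; rfl
  have hb2 : b 2 = d := by rw [hb]; rfl
  have hT1 : T (b 1) = b 1 + b 2 := by rw [hb1, hb2, hTe]
  have hT2 : T (b 2) = l • b 1 + (1 + l) • b 2 := by rw [hb1, hb2, hTd]
  set M := LinearMap.toMatrix b b T with hM
  have hdetM : M.det = 1 := by rw [hM, LinearMap.det_toMatrix, hdet]
  have m01 : M 0 1 = 0 := by
    rw [hM, LinearMap.toMatrix_apply, hT1]; simp [Finsupp.single_apply]
  have m11 : M 1 1 = 1 := by
    rw [hM, LinearMap.toMatrix_apply, hT1]; simp [Finsupp.single_apply]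
  have m21 : M 2 1 = 1 := by
    rw [hM, LinearMap.toMatrix_apply, hT1]; simp [Finsupp.single_apply]
  have m02 : M 0 2 = 0 := by
    rw [hM, LinearMap.toMatrix_apply, hT2]; simp [Finsupp.single_apply]
  have m12 : M 1 2 = l := by
    rw [hM, LinearMap.toMatrix_apply, hT2]; simp [Finsupp.single_apply]
  have m22 : M 2 2 = 1 + l := by
    rw [hM, LinearMap.toMatrix_apply, hT2]; simp [Finsupp.single_apply]
  have m00 : M 0 0 = 1 := by
    have := hdetM
    rw [Matrix.det_fin_three, m01, m11, m21, m02, m12, m22] at this
    linear_combination this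
  have hr0 : b.repr (T z) 0 = 1 := by
    rw [← hb0, ← LinearMap.toMatrix_apply, ← hM]; exact m00
  have hTz : T z - z ∈ Submodule.span K ({e, d} : Set V) := by
    have hsum := b.sum_repr (T z)
    rw [Fin.sum_univ_three, hr0, hb0, hb1, hb2, one_smul] at hsum
    generalize b.repr (T z) 1 = r1 at hsum
    generalize b.repr (T z) 2 = r2 at hsum
    have : T z - z = r1 • e + r2 • d := by
      rw [← hsum]; abel
    rw [this]
    exact Submodule.add_mem _ (Submodule.smul_mem _ _ (Submodule.subset_span (by simp)))
      (Submodule.smul_mem _ _ (Submodule.subset_span (by simp)))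
  have hes : e ∈ Submodule.span K ({e, d} : Set V) := Submodule.subset_span (by simp)
  have hds : d ∈ Submodule.span K ({e, d} : Set V) := Submodule.subset_span (by simp)
  intro v
  have hsum := b.sum_repr v
  rw [Fin.sum_univ_three, hb0, hb1, hb2] at hsum
  generalize b.repr v 0 = x0 at hsum
  generalize b.repr v 1 = x1 at hsum
  generalize b.repr v 2 = x2 at hsum
  have : T v - v = x0 • (T z - z) + x1 • d + x2 • (l • T e) := by
    rw [← hsum]
    simp only [map_add, map_smul]
    have h1 : T d = d + l • T e := by rw [← hl]; abel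
    rw [h1, hTe]
    simp only [smul_add, smul_sub]
    abel
  rw [this]
  refine Submodule.add_mem _ (Submodule.add_mem _ (Submodule.smul_mem _ _ hTz)
    (Submodule.smul_mem _ _ hds)) (Submodule.smul_mem _ _ (Submodule.smul_mem _ _ ?_))
  rw [hTe]
  exact Submodule.add_mem _ hes hds

end Cfsg.Agent.Lib.Helper16.RegUni
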