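import Mathlib
import Cfsg.Agent.Lib.Helper16.RegUni.Avoid

/-!
# Vectors that are not eigenvectors and avoid given hyperplanes

For a non-scalar endomorphism `T` over a field with at least four elements: a vector on which two
(any dimension) or three (dimension at least three) given nonzero functionals do not vanish and
which is not an eigenvector of `T`.
-/

set_option autoImplicit false

namespace Cfsg.Agent.Lib.Helper16.RegUni

open Module

variable {K : Type*} [Field K] {V : Type*} [AddCommGroup V] [Module K V]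

theorem ker_ne_top_of_ne_zero {f : Module.Dual K V} (h : f ≠ 0) : LinearMap.ker f ≠ ⊤ :=
  fun h' => h (LinearMap.ker_eq_top.1 h')

theorem exists_not_eig (T : V →ₗ[K] V) (c : K) (hT : T ≠ c • LinearMap.id) :
    ∃ d, T d ≠ c • d := by
  by_contra h
  push Not at h
  exact hT (LinearMap.ext fun v => by simp [h v])

/-- Two functionals, any dimension. -/
theorem exists_noneig2 (hK : ∃ c : Fin 4 → K, Function.Injective c) (T : V →ₗ[K] V)
    (hT : ∀ c : K, T ≠ c • LinearMap.id) (f₁ f₂ : Module.Dual K V) (h₁ : f₁ ≠ 0) (h₂ : f₂ ≠ 0) :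
    ∃ e, f₁ e ≠ 0 ∧ f₂ e ≠ 0 ∧ ∀ c : K, T e ≠ c • e := by
  obtain ⟨e₀, k1, k2, -, -⟩ := cover4 hK (LinearMap.ker f₁) (LinearMap.ker f₂) (LinearMap.ker f₁)
    (LinearMap.ker f₁) (ker_ne_top_of_ne_zero h₁) (ker_ne_top_of_ne_zero h₂)
    (ker_ne_top_of_ne_zero h₁) (ker_ne_top_of_ne_zero h₁)
  rw [LinearMap.mem_ker] at k1 k2
  by_cases hne : ∀ c : K, T e₀ ≠ c • e₀
  · exact ⟨e₀, k1, k2, hne⟩
  push Not at hne
  obtain ⟨l, hl⟩ := hne
  obtain ⟨d, hd⟩ := exists_not_eig T l (hT l)
  have he₀ : e₀ ≠ 0 := fun h => k1 (by rw [h, map_zero])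
  have hdspan : d ∉ K ∙ e₀ := by
    intro hmem
    obtain ⟨x, rfl⟩ := Submodule.mem_span_singleton.1 hmem
    apply hd
    rw [map_smul, hl, smul_comm]
  set g := T d - l • d with hg
  have hg0 : g ≠ 0 := sub_ne_zero.2 hd
  obtain ⟨a, s, m1, m2, m3, m4⟩ := plane4 hK e₀ d (LinearMap.ker f₁) (LinearMap.ker f₂)
    (K ∙ e₀) (K ∙ g) (Or.inl (by rwa [LinearMap.mem_ker])) (Or.inl (by rwa [LinearMap.mem_ker]))
    (Or.inr hdspan) (by
      by_contra hboth
      push Not at hboth
      obtain ⟨x, hx⟩ := Submodule.mem_span_singleton.1 hboth.1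
      obtain ⟨x', hx'⟩ := Submodule.mem_span_singleton.1 hboth.2
      have hx0 : x ≠ 0 := fun h => he₀ (by rw [← hx, h, zero_smul])
      apply hdspan
      rw [Submodule.mem_span_singleton]
      refine ⟨x' * x⁻¹, ?_⟩
      rw [← hx', ← hx, smul_smul, mul_assoc, inv_mul_cancel₀ hx0, mul_one])
  rw [LinearMap.mem_ker] at m1 m2
  refine ⟨a • e₀ + s • d, m1, m2, ?_⟩
  intro μ hμ
  have hs : s ≠ 0 := by
    intro hs
    apply m3
    rw [hs, zero_smul, add_zero]
    exact Submodule.smul_mem _ _ (Submodule.mem_span_singleton_self _)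
  have key : s • g = (μ - l) • (a • e₀ + s • d) := by
    have : T (a • e₀ + s • d) - l • (a • e₀ + s • d) = s • g := by
      rw [map_add, map_smul, map_smul, hl, hg]
      simp only [smul_sub, smul_add, smul_smul]
      rw [mul_comm l a, mul_comm l s]
      abel
    rw [← this, hμ, sub_smul]
  by_cases hml : μ = l
  · rw [hml, sub_self, zero_smul] at key
    exact hg0 ((smul_eq_zero.1 key).resolve_left hs)
  · apply m4
    rw [Submodule.mem_span_singleton]
    refine ⟨(μ - l)⁻¹ * s, ?_⟩
    rw [← smul_smul, key, smul_smul, inv_mul_cancel₀ (sub_ne_zero.2 hml), one_smul]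

/-- Three functionals, dimension at least three. -/
theorem exists_noneig3 (hK : ∃ c : Fin 4 → K, Function.Injective c) [FiniteDimensional K V]
    (hn : 3 ≤ finrank K V) (T : V →ₗ[K] V)
    (hT : ∀ c : K, T ≠ c • LinearMap.id) (f₁ f₂ f₃ : Module.Dual K V)
    (h₁ : f₁ ≠ 0) (h₂ : f₂ ≠ 0) (h₃ : f₃ ≠ 0) :
    ∃ e, f₁ e ≠ 0 ∧ f₂ e ≠ 0 ∧ f₃ e ≠ 0 ∧ ∀ c : K, T e ≠ c • e := by
  obtain ⟨e₀, k1, k2, k3, -⟩ := cover4 hK (LinearMap.ker f₁) (LinearMap.ker f₂) (LinearMap.ker f₃)
    (LinearMap.ker f₁) (ker_ne_top_of_ne_zero h₁) (ker_ne_top_of_ne_zero h₂)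
    (ker_ne_top_of_ne_zero h₃) (ker_ne_top_of_ne_zero h₁)
  rw [LinearMap.mem_ker] at k1 k2 k3
  by_cases hne : ∀ c : K, T e₀ ≠ c • e₀
  · exact ⟨e₀, k1, k2, k3, hne⟩
  push Not at hne
  obtain ⟨l, hl⟩ := hne
  have he₀ : e₀ ≠ 0 := fun h => k1 (by rw [h, map_zero])
  set B : V →ₗ[K] V := T - l • LinearMap.id with hB
  have hBv : ∀ v, B v = T v - l • v := fun v => by simp [hB]
  have hBe : B e₀ = 0 := by rw [hBv, hl, sub_self]
  by_cases h3 : ∃ d, B d ∉ Submodule.span K ({e₀, d} : Set V)
  · obtain ⟨d, hd⟩ := h3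
    have hdspan : d ∉ K ∙ e₀ := by
      intro hmem
      obtain ⟨x, rfl⟩ := Submodule.mem_span_singleton.1 hmem
      apply hd
      rw [map_smul, hBe, smul_zero]
      exact Submodule.zero_mem _
    obtain ⟨a, s, m1, m2, m3, m4⟩ := plane4 hK e₀ d (LinearMap.ker f₁) (LinearMap.ker f₂)
      (LinearMap.ker f₃) (K ∙ e₀) (Or.inl (by rwa [LinearMap.mem_ker]))
      (Or.inl (by rwa [LinearMap.mem_ker])) (Or.inl (by rwa [LinearMap.mem_ker])) (Or.inr hdspan)
    rw [LinearMap.mem_ker] at m1 m2 m3
    refine ⟨a • e₀ + s • d, m1, m2, m3, ?_⟩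
    intro μ hμ
    have hs : s ≠ 0 := by
      intro hs
      apply m4
      rw [hs, zero_smul, add_zero]
      exact Submodule.smul_mem _ _ (Submodule.mem_span_singleton_self _)
    have key : s • B d = (μ - l) • (a • e₀ + s • d) := by
      have : B (a • e₀ + s • d) = s • B d := by
        rw [map_add, map_smul, map_smul, hBe, smul_zero, zero_add]
      rw [← this, hBv, hμ, sub_smul]
    apply hd
    have hBd : B d = (s⁻¹ * (μ - l)) • (a • e₀ + s • d) := by
      rw [← smul_smul, ← key, smul_smul, inv_mul_cancel₀ hs, one_smul]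
    rw [hBd]
    refine Submodule.smul_mem _ _ (Submodule.add_mem _ (Submodule.smul_mem _ _ ?_)
      (Submodule.smul_mem _ _ ?_))
    · exact Submodule.subset_span (by simp)
    · exact Submodule.subset_span (by simp)
  · push Not at h3
    -- `B` induces a scalar on the quotient by `e₀`
    set W : Submodule K V := K ∙ e₀ with hW
    have hBW : W ≤ W.comap B := by
      intro x hx
      obtain ⟨t, rfl⟩ := Submodule.mem_span_singleton.1 hx
      rw [Submodule.mem_comap, map_smul, hBe, smul_zero]
      exact Submodule.zero_mem _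
    obtain ⟨β, hβ⟩ := LinearMap.exists_eq_smul_id_of_forall_notLinearIndependent
      (f := W.mapQ W B hBW) (by
        intro x
        obtain ⟨d, rfl⟩ := Submodule.Quotient.mk_surjective W x
        obtain ⟨a, b, hab⟩ := Submodule.mem_span_pair.1 (h3 d)
        rw [LinearIndependent.pair_iff]
        intro hli
        have := hli b (-1) (by
          rw [Submodule.mapQ_apply, ← hab, neg_smul, one_smul, Submodule.Quotient.mk_add,
            Submodule.Quotient.mk_smul, Submodule.Quotient.mk_smul]
          have : Submodule.Quotient.mk (p := W) e₀ = 0 :=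
            (Submodule.Quotient.mk_eq_zero W).2 (Submodule.mem_span_singleton_self _)
          rw [this, smul_zero, zero_add, add_neg_cancel])
        exact absurd this.2 (by norm_num))
    have hβv : ∀ v, B v - β • v ∈ W := by
      intro v
      have := congrArg (fun g => g (Submodule.Quotient.mk v)) hβ
      simp only [Submodule.mapQ_apply, LinearMap.smul_apply, Module.End.one_apply] at this
      rw [← Submodule.Quotient.mk_smul] at this
      exact (Submodule.Quotient.eq W).1 this
    by_cases hβ0 : β = 0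
    · -- `B` has image in the line of `e₀`
      have hBspan : ∀ v, B v ∈ W := fun v => by simpa [hβ0] using hβv v
      have hkerB : LinearMap.ker B ≠ ⊤ := by
        intro htop
        apply hT l
        ext v
        have : B v = 0 := by
          have : v ∈ LinearMap.ker B := by rw [htop]; trivial
          exact this
        rw [hBv, sub_eq_zero] at this
        simp [this]
      obtain ⟨v, m1, m2, m3, m4⟩ := cover4 hK (LinearMap.ker f₁) (LinearMap.ker f₂)
        (LinearMap.ker f₃) (LinearMap.ker B) (ker_ne_top_of_ne_zero h₁)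
        (ker_ne_top_of_ne_zero h₂) (ker_ne_top_of_ne_zero h₃) hkerB
      rw [LinearMap.mem_ker] at m1 m2 m3 m4
      refine ⟨v, m1, m2, m3, ?_⟩
      intro μ hμ
      have hBvμ : B v = (μ - l) • v := by rw [hBv, hμ, sub_smul]
      obtain ⟨x, hx⟩ := Submodule.mem_span_singleton.1 (hBspan v)
      have hml : μ - l ≠ 0 := by
        intro h
        apply m4
        rw [hBvμ, h, zero_smul]
      apply m4
      have hv : v = ((μ - l)⁻¹ * x) • e₀ := by
        rw [← smul_smul, hx, hBvμ, smul_smul, inv_mul_cancel₀ hml, one_smul]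
      rw [hv, map_smul, hBe, smul_zero]
    · set C : V →ₗ[K] V := B - β • LinearMap.id with hC
      have hCv : ∀ v, C v = B v - β • v := fun v => by simp [hC]
      have hCspan : ∀ v, C v ∈ W := fun v => by rw [hCv]; exact hβv v
      have hCe : C e₀ ≠ 0 := by
        rw [hCv, hBe, zero_sub, neg_ne_zero]
        exact smul_ne_zero hβ0 he₀
      -- a nonzero vector killed by `f₁` and `f₂`
      have hker : LinearMap.ker (f₁.prod f₂) ≠ ⊥ := by
        apply LinearMap.ker_ne_bot_of_finrank_lt
        rw [Module.finrank_prod, Module.finrank_self]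
        omega
      obtain ⟨m, hm, hm0⟩ := (Submodule.ne_bot_iff _).1 hker
      have hm1 : f₁ m = 0 := by
        have := congrArg Prod.fst (LinearMap.mem_ker.1 hm)
        simpa using this
      have hm2 : f₂ m = 0 := by
        have := congrArg Prod.snd (LinearMap.mem_ker.1 hm)
        simpa using this
      obtain ⟨a, s, n1, n2, n3, n4⟩ := plane4 hK e₀ m (K ∙ m) (K ∙ e₀) (LinearMap.ker f₃)
        (LinearMap.ker C)
        (Or.inl (by
          intro hmem
          obtain ⟨x, hx⟩ := Submodule.mem_span_singleton.1 hmem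
          apply k1
          rw [← hx, map_smul, hm1, smul_zero]))
        (Or.inr (by
          intro hmem
          obtain ⟨x, hx⟩ := Submodule.mem_span_singleton.1 hmem
          have : x • f₁ e₀ = 0 := by rw [← map_smul, hx, hm1]
          have hx0 : x = 0 := (smul_eq_zero.1 this).resolve_right k1
          apply hm0
          rw [← hx, hx0, zero_smul]))
        (Or.inl (by rwa [LinearMap.mem_ker])) (Or.inl (by rwa [LinearMap.mem_ker]))
      rw [LinearMap.mem_ker] at n3 n4
      have ha : a ≠ 0 := by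
        intro ha
        apply n1
        rw [ha, zero_smul, zero_add]
        exact Submodule.smul_mem _ _ (Submodule.mem_span_singleton_self _)
      refine ⟨a • e₀ + s • m, ?_, ?_, n3, ?_⟩
      · rw [map_add, map_smul, map_smul, hm1, smul_zero, add_zero]
        exact smul_ne_zero ha k1
      · rw [map_add, map_smul, map_smul, hm2, smul_zero, add_zero]
        exact smul_ne_zero ha k2
      · intro μ hμ
        have hCμ : C (a • e₀ + s • m) = (μ - l - β) • (a • e₀ + s • m) := by
          rw [hCv, hBv, hμ, sub_smul, sub_smul]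
        have hne : μ - l - β ≠ 0 := by
          intro h
          apply n4
          rw [hCμ, h, zero_smul]
        apply n2
        have : a • e₀ + s • m = (μ - l - β)⁻¹ • C (a • e₀ + s • m) := by
          rw [hCμ, smul_smul, inv_mul_cancel₀ hne, one_smul]
        rw [this]
        exact Submodule.smul_mem _ _ (hCspan _)

end Cfsg.Agent.Lib.Helper16.RegUni
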