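import Mathlib

/-!
# One step of the triangular factorisation

`V = K e ⊕ ker ψ` with `ψ e = 1 = ψ (T e)`.  The Schur complement `schur T e ψ` is the
endomorphism `h ↦ T h - ψ (T h) • T e` of `ker ψ`.  A factorisation `schur = u' ∘ w'` into
regular unipotent maps lifts to a factorisation `T = stepU ∘ stepW`, and regularity lifts under
two non-vanishing conditions.  `RU u` says that `u - 1` is nilpotent with a line as kernel.
-/

set_option autoImplicit false

namespace Cfsg.Agent.Lib.Helper16.RegUni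

open Module

variable {K : Type*} [Field K] {V : Type*} [AddCommGroup V] [Module K V]

/-- Regular unipotent: `u - 1` is nilpotent with one-dimensional kernel. -/
def RU (u : V →ₗ[K] V) : Prop :=
  IsNilpotent (u - 1) ∧ finrank K (LinearMap.ker (u - 1)) = 1

variable (T : V →ₗ[K] V) (e : V) (ψ : Module.Dual K V)

/-- The Schur map on all of `V`. -/
def schurV : V →ₗ[K] V := T - (ψ ∘ₗ T).smulRight (T e)

theorem schurV_apply (v : V) : schurV T e ψ v = T v - ψ (T v) • T e := by simp [schurV]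

theorem schurV_mem (h1 : ψ (T e) = 1) (v : V) : ψ (schurV T e ψ v) = 0 := by
  rw [schurV_apply, map_sub, map_smul, h1, smul_eq_mul, mul_one, sub_self]

/-- The Schur complement, an endomorphism of `ker ψ`. -/
def schur (h1 : ψ (T e) = 1) : LinearMap.ker ψ →ₗ[K] LinearMap.ker ψ :=
  (schurV T e ψ).restrict (fun x _ => LinearMap.mem_ker.2 (schurV_mem T e ψ h1 x))

theorem schur_coe (h1 : ψ (T e) = 1) (h : LinearMap.ker ψ) :
    (schur T e ψ h1 h : V) = T h - ψ (T h) • T e := by
  rw [schur, LinearMap.restrict_coe_apply, schurV_apply]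

/-- The projection onto `ker ψ` along `e`. -/
def projH (he : ψ e = 1) : V →ₗ[K] LinearMap.ker ψ :=
  (LinearMap.id - ψ.smulRight e).codRestrict (LinearMap.ker ψ) (fun v => by
    rw [LinearMap.mem_ker]; simp [he])

variable {e ψ}

theorem projH_coe (he : ψ e = 1) (v : V) : (projH e ψ he v : V) = v - ψ v • e := by
  simp [projH]

theorem projH_e (he : ψ e = 1) : projH e ψ he e = 0 := by
  apply Subtype.ext
  rw [projH_coe, he, one_smul, sub_self]
  rfl

theorem projH_sub (he : ψ e = 1) (h : LinearMap.ker ψ) : projH e ψ he (h : V) = h := by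
  apply Subtype.ext
  rw [projH_coe, LinearMap.mem_ker.1 h.2, zero_smul, sub_zero]

theorem decomp (he : ψ e = 1) (v : V) : v = ψ v • e + (projH e ψ he v : V) := by
  rw [projH_coe]; abel

theorem psi_coe (h : LinearMap.ker ψ) : ψ (h : V) = 0 := LinearMap.mem_ker.1 h.2

variable (e ψ)

/-- Extension of an endomorphism `N'` of `ker ψ` by `e ↦ y'`. -/
def extN (he : ψ e = 1) (y' : V) (N' : LinearMap.ker ψ →ₗ[K] LinearMap.ker ψ) : V →ₗ[K] V :=
  ψ.smulRight y' + (LinearMap.ker ψ).subtype ∘ₗ N' ∘ₗ projH e ψ he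

variable {e ψ}

theorem extN_apply (he : ψ e = 1) (y' : V) (N' : LinearMap.ker ψ →ₗ[K] LinearMap.ker ψ)
    (v : V) : extN e ψ he y' N' v = ψ v • y' + (N' (projH e ψ he v) : V) := by
  simp [extN]

theorem extN_sub (he : ψ e = 1) (y' : V) (N' : LinearMap.ker ψ →ₗ[K] LinearMap.ker ψ)
    (h : LinearMap.ker ψ) : extN e ψ he y' N' (h : V) = (N' h : V) := by
  rw [extN_apply, psi_coe, zero_smul, zero_add, projH_sub]

theorem extN_e (he : ψ e = 1) (y' : V) (N' : LinearMap.ker ψ →ₗ[K] LinearMap.ker ψ) :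
    extN e ψ he y' N' e = y' := by
  rw [extN_apply, he, one_smul, projH_e, map_zero]
  simp

theorem extN_mem (he : ψ e = 1) (y' : V) (hy : ψ y' = 0)
    (N' : LinearMap.ker ψ →ₗ[K] LinearMap.ker ψ) (v : V) : ψ (extN e ψ he y' N' v) = 0 := by
  rw [extN_apply, map_add, map_smul, hy, smul_zero, zero_add, psi_coe]

theorem extN_pow_sub (he : ψ e = 1) (y' : V) (N' : LinearMap.ker ψ →ₗ[K] LinearMap.ker ψ)
    (k : ℕ) (h : LinearMap.ker ψ) : (extN e ψ he y' N' ^ k) (h : V) = ((N' ^ k) h : V) := by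
  induction k generalizing h with
  | zero => simp
  | succ k ih =>
    rw [pow_succ, pow_succ, Module.End.mul_apply, Module.End.mul_apply, extN_sub, ih]

theorem extN_nilpotent (he : ψ e = 1) (y' : V) (hy : ψ y' = 0)
    (N' : LinearMap.ker ψ →ₗ[K] LinearMap.ker ψ) (hN' : IsNilpotent N') :
    IsNilpotent (extN e ψ he y' N') := by
  obtain ⟨m, hm⟩ := hN'
  refine ⟨m + 1, ?_⟩
  ext v
  rw [pow_succ, Module.End.mul_apply]
  have hmem : extN e ψ he y' N' v ∈ LinearMap.ker ψ :=
    LinearMap.mem_ker.2 (extN_mem he y' hy N' v)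
  have := extN_pow_sub he y' N' m ⟨_, hmem⟩
  simp only at this
  rw [this, hm]
  simp

theorem extN_ker (he : ψ e = 1) (y' : V) (hy : ψ y' = 0)
    (N' : LinearMap.ker ψ →ₗ[K] LinearMap.ker ψ)
    (hy' : (⟨y', LinearMap.mem_ker.2 hy⟩ : LinearMap.ker ψ) ∉ LinearMap.range N') :
    LinearMap.ker (extN e ψ he y' N') = (LinearMap.ker N').map (LinearMap.ker ψ).subtype := by
  ext v
  rw [LinearMap.mem_ker, Submodule.mem_map]
  constructor
  · intro hv
    rw [extN_apply] at hv
    have hψ : ψ v = 0 := by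
      by_contra hne
      apply hy'
      refine ⟨-(ψ v)⁻¹ • projH e ψ he v, ?_⟩
      apply Subtype.ext
      rw [map_smul]
      simp only [Submodule.coe_smul]
      have h2 : (N' (projH e ψ he v) : V) = -(ψ v • y') := by
        rw [eq_neg_iff_add_eq_zero, add_comm]; exact hv
      rw [h2, neg_smul, smul_neg, neg_neg, smul_smul, inv_mul_cancel₀ hne, one_smul]
    rw [hψ, zero_smul, zero_add] at hv
    refine ⟨⟨v, LinearMap.mem_ker.2 hψ⟩, ?_, rfl⟩
    rw [LinearMap.mem_ker]
    apply Subtype.ext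
    have h3 : projH e ψ he v = ⟨v, LinearMap.mem_ker.2 hψ⟩ := by
      apply Subtype.ext
      simp [projH_coe, hψ]
    rw [← h3, hv]
    rfl
  · rintro ⟨h, hh, rfl⟩
    rw [Submodule.subtype_apply, extN_sub, LinearMap.mem_ker.1 hh]
    rfl

theorem extN_range (he : ψ e = 1) (y' : V) (hy : ψ y' = 0)
    (N' : LinearMap.ker ψ →ₗ[K] LinearMap.ker ψ) :
    LinearMap.range (extN e ψ he y' N') ≤ LinearMap.ker ψ := by
  rintro _ ⟨v, rfl⟩
  exact LinearMap.mem_ker.2 (extN_mem he y' hy N' v)

variable (e ψ)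

/-- The lifted lower factor. -/
def stepU (he : ψ e = 1) (u' : LinearMap.ker ψ →ₗ[K] LinearMap.ker ψ) : V →ₗ[K] V :=
  ψ.smulRight (T e) + (LinearMap.ker ψ).subtype ∘ₗ u' ∘ₗ projH e ψ he

/-- The lifted upper factor. -/
def stepW (he : ψ e = 1) (w' : LinearMap.ker ψ →ₗ[K] LinearMap.ker ψ) : V →ₗ[K] V :=
  (ψ + ψ ∘ₗ T ∘ₗ (LinearMap.ker ψ).subtype ∘ₗ projH e ψ he).smulRight e +
    (LinearMap.ker ψ).subtype ∘ₗ w' ∘ₗ projH e ψ he

variable {e ψ}

theorem stepU_apply (he : ψ e = 1) (u' : LinearMap.ker ψ →ₗ[K] LinearMap.ker ψ) (v : V) :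
    stepU T e ψ he u' v = ψ v • T e + (u' (projH e ψ he v) : V) := by
  simp [stepU]

theorem stepW_apply (he : ψ e = 1) (w' : LinearMap.ker ψ →ₗ[K] LinearMap.ker ψ) (v : V) :
    stepW T e ψ he w' v =
      (ψ v + ψ (T (projH e ψ he v))) • e + (w' (projH e ψ he v) : V) := by
  simp [stepW]

theorem stepU_sub_one (he : ψ e = 1) (u' : LinearMap.ker ψ →ₗ[K] LinearMap.ker ψ) :
    stepU T e ψ he u' - 1 = extN e ψ he (T e - e) (u' - 1) := by
  ext v
  rw [LinearMap.sub_apply, Module.End.one_apply, stepU_apply, extN_apply, LinearMap.sub_apply,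
    Module.End.one_apply]
  simp only [Submodule.coe_sub]
  conv_lhs => rw [decomp he v]
  simp only [map_add, map_smul, he, psi_coe, smul_eq_mul, mul_one, add_zero, projH_e,
    smul_zero, zero_add, projH_sub, smul_sub]
  abel

theorem step_comp (he : ψ e = 1) (h1 : ψ (T e) = 1)
    (u' w' : LinearMap.ker ψ →ₗ[K] LinearMap.ker ψ) (hS : schur T e ψ h1 = u' ∘ₗ w') :
    T = stepU T e ψ he u' ∘ₗ stepW T e ψ he w' := by
  ext v
  rw [LinearMap.comp_apply, stepU_apply]
  have hψ : ψ (stepW T e ψ he w' v) = ψ v + ψ (T (projH e ψ he v)) := by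
    rw [stepW_apply, map_add, map_smul, he, psi_coe, add_zero, smul_eq_mul, mul_one]
  have hπ : projH e ψ he (stepW T e ψ he w' v) = w' (projH e ψ he v) := by
    rw [stepW_apply, map_add, map_smul, projH_e, smul_zero, zero_add, projH_sub]
  rw [hψ, hπ]
  have hs : (u' (w' (projH e ψ he v)) : V) =
      T (projH e ψ he v) - ψ (T (projH e ψ he v)) • T e := by
    rw [← schur_coe T e ψ h1, hS]
    rfl
  rw [hs]
  conv_lhs => rw [decomp he v]
  rw [map_add, map_smul, add_smul]
  abel

theorem RU_stepU (he : ψ e = 1) (h1 : ψ (T e) = 1)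
    (u' : LinearMap.ker ψ →ₗ[K] LinearMap.ker ψ) (hu' : RU u')
    (hy' : (⟨T e - e, LinearMap.mem_ker.2 (by rw [map_sub, h1, he, sub_self])⟩ :
      LinearMap.ker ψ) ∉ LinearMap.range (u' - 1)) :
    RU (stepU T e ψ he u') ∧ LinearMap.range (stepU T e ψ he u' - 1) ≤ LinearMap.ker ψ := by
  have hy : ψ (T e - e) = 0 := by rw [map_sub, h1, he, sub_self]
  rw [RU, stepU_sub_one]
  refine ⟨⟨extN_nilpotent he _ hy _ hu'.1, ?_⟩, extN_range he _ hy _⟩
  rw [extN_ker he _ hy _ hy', ← hu'.2]
  exact Submodule.finrank_map_subtype_eq _ _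

theorem stepW_sub_one_apply (he : ψ e = 1) (w' : LinearMap.ker ψ →ₗ[K] LinearMap.ker ψ)
    (v : V) : (stepW T e ψ he w' - 1) v =
      ψ (T (projH e ψ he v)) • e + ((w' - 1) (projH e ψ he v) : V) := by
  rw [LinearMap.sub_apply, Module.End.one_apply, stepW_apply, LinearMap.sub_apply,
    Module.End.one_apply]
  simp only [Submodule.coe_sub]
  conv_lhs => rw [decomp he v]
  simp only [map_add, map_smul, he, psi_coe, smul_eq_mul, mul_one, add_zero, projH_e,
    smul_zero, zero_add, projH_sub, add_smul]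
  abel

theorem projH_stepW (he : ψ e = 1) (w' : LinearMap.ker ψ →ₗ[K] LinearMap.ker ψ) (k : ℕ)
    (v : V) : projH e ψ he (((stepW T e ψ he w' - 1) ^ k) v) =
      ((w' - 1) ^ k) (projH e ψ he v) := by
  induction k with
  | zero => simp
  | succ k ih =>
    rw [pow_succ', pow_succ', Module.End.mul_apply, Module.End.mul_apply, stepW_sub_one_apply,
      map_add, map_smul, projH_e, smul_zero, zero_add, projH_sub, ih]

theorem RU_stepW (he : ψ e = 1) (w' : LinearMap.ker ψ →ₗ[K] LinearMap.ker ψ) (hw' : RU w')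
    (e' : LinearMap.ker ψ) (he' : w' e' = e') (hφ : ψ (T e') ≠ 0) :
    RU (stepW T e ψ he w') ∧ stepW T e ψ he w' e = e := by
  have he0 : e ≠ 0 := fun h => by rw [h, map_zero] at he; exact zero_ne_one he
  have hWe : stepW T e ψ he w' e = e := by
    rw [stepW_apply, projH_e]
    simp [he]
  refine ⟨⟨?_, ?_⟩, hWe⟩
  · obtain ⟨m, hm⟩ := hw'.1
    refine ⟨m + 1, ?_⟩
    ext v
    rw [pow_succ', Module.End.mul_apply, stepW_sub_one_apply, projH_stepW, hm]
    simp
  · have hker : LinearMap.ker (stepW T e ψ he w' - 1) = K ∙ e := by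
      ext v
      rw [LinearMap.mem_ker, Submodule.mem_span_singleton]
      constructor
      · intro hv
        have hπ : (w' - 1) (projH e ψ he v) = 0 := by
          have := projH_stepW T he w' 1 v
          rw [pow_one, pow_one, hv, map_zero] at this
          exact this.symm
        have he'0 : e' ≠ 0 := fun h => hφ (by rw [h]; simp)
        have he'ker : e' ∈ LinearMap.ker (w' - 1) := by
          rw [LinearMap.mem_ker, LinearMap.sub_apply, he', Module.End.one_apply, sub_self]
        obtain ⟨a, ha⟩ := (finrank_eq_one_iff_of_nonzero'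
          (⟨e', he'ker⟩ : LinearMap.ker (w' - 1)) (fun h => he'0 (congrArg Subtype.val h))).1
          hw'.2 ⟨projH e ψ he v, LinearMap.mem_ker.2 hπ⟩
        have ha' : a • e' = projH e ψ he v := congrArg Subtype.val ha
        rw [stepW_sub_one_apply, hπ] at hv
        simp only [ZeroMemClass.coe_zero, add_zero] at hv
        have h0 : ψ (T (projH e ψ he v)) = 0 := (smul_eq_zero.1 hv).resolve_right he0
        rw [← ha', Submodule.coe_smul, map_smul, map_smul, smul_eq_mul] at h0
        have ha0 : a = 0 := (mul_eq_zero.1 h0).resolve_right hφ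
        rw [ha0, zero_smul] at ha'
        refine ⟨ψ v, ?_⟩
        conv_rhs => rw [decomp he v]
        rw [← ha']
        simp
      · rintro ⟨a, rfl⟩
        rw [map_smul, LinearMap.sub_apply, hWe, Module.End.one_apply, sub_self, smul_zero]
    rw [hker]
    exact finrank_span_singleton he0

/-- The Schur complement has the determinant of `T`. -/
theorem det_schur [FiniteDimensional K V] (he : ψ e = 1) (h1 : ψ (T e) = 1) :
    LinearMap.det (schur T e ψ h1) = LinearMap.det T := by
  -- `u₂ v = v - ψ (T (π v)) • e`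
  set u₂ : V →ₗ[K] V :=
    LinearMap.id - (ψ ∘ₗ T ∘ₗ (LinearMap.ker ψ).subtype ∘ₗ projH e ψ he).smulRight e with hu₂
  have hu₂v : ∀ v, u₂ v = v - ψ (T (projH e ψ he v)) • e := fun v => by simp [hu₂]
  have hu₂e : u₂ e = e := by rw [hu₂v, projH_e]; simp
  -- determinant of `u₂`
  have hdet2 : LinearMap.det u₂ = 1 := by
    have hW : (K ∙ e) ≤ (K ∙ e).comap u₂ := by
      intro x hx
      obtain ⟨a, rfl⟩ := Submodule.mem_span_singleton.1 hx
      rw [Submodule.mem_comap, map_smul, hu₂e]
      exact Submodule.smul_mem _ _ (Submodule.mem_span_singleton_self _)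
    rw [LinearMap.det_eq_det_mul_det (K ∙ e) u₂ hW]
    have hr : u₂.restrict hW = LinearMap.id := by
      ext ⟨x, hx⟩
      obtain ⟨a, rfl⟩ := Submodule.mem_span_singleton.1 hx
      simp [LinearMap.restrict_coe_apply, hu₂e]
    have hq : (K ∙ e).mapQ (K ∙ e) u₂ hW = LinearMap.id := by
      apply Submodule.linearMap_qext
      ext v
      simp only [LinearMap.comp_apply, Submodule.mkQ_apply, Submodule.mapQ_apply,
        LinearMap.id_apply]
      rw [Submodule.Quotient.eq, hu₂v, sub_sub_cancel_left]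
      exact Submodule.neg_mem _ (Submodule.smul_mem _ _ (Submodule.mem_span_singleton_self _))
    rw [hr, hq, LinearMap.det_id, LinearMap.det_id, mul_one]
  -- `T ∘ u₂` preserves `ker ψ`, restricting to the Schur complement
  have hTu : ∀ v, (T ∘ₗ u₂) v = T v - ψ (T (projH e ψ he v)) • T e := fun v => by
    rw [LinearMap.comp_apply, hu₂v, map_sub, map_smul]
  have hH : LinearMap.ker ψ ≤ (LinearMap.ker ψ).comap (T ∘ₗ u₂) := by
    intro x hx
    rw [Submodule.mem_comap, LinearMap.mem_ker, hTu]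
    have : projH e ψ he x = ⟨x, hx⟩ := projH_sub he ⟨x, hx⟩
    rw [this, map_sub, map_smul, h1, smul_eq_mul, mul_one, sub_self]
  have hr : (T ∘ₗ u₂).restrict hH = schur T e ψ h1 := by
    ext ⟨x, hx⟩
    rw [LinearMap.restrict_coe_apply, schur_coe, hTu]
    have : projH e ψ he x = ⟨x, hx⟩ := projH_sub he ⟨x, hx⟩
    rw [this]
  have hq : (LinearMap.ker ψ).mapQ (LinearMap.ker ψ) (T ∘ₗ u₂) hH = LinearMap.id := by
    apply Submodule.linearMap_qext
    ext v
    simp only [LinearMap.comp_apply, Submodule.mkQ_apply, Submodule.mapQ_apply,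
      LinearMap.id_apply]
    rw [Submodule.Quotient.eq, LinearMap.mem_ker, ← LinearMap.comp_apply, hTu, map_sub, map_sub,
      map_smul, h1, smul_eq_mul, mul_one]
    have : ψ (T v) = ψ v + ψ (T (projH e ψ he v)) := by
      conv_lhs => rw [decomp he v]
      rw [map_add, map_smul, map_add, map_smul, h1, smul_eq_mul, mul_one]
    rw [this]
    ring
  have := LinearMap.det_eq_det_mul_det (LinearMap.ker ψ) (T ∘ₗ u₂) hH
  rw [hr, hq, LinearMap.det_id, mul_one, LinearMap.det_comp, hdet2, mul_one] at this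
  exact this.symm

end Cfsg.Agent.Lib.Helper16.RegUni
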