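import Mathlib
import Cfsg.Agent.Lib.Helper16.RegUni.Step

/-!
# The Schur complement: its fixed vectors and when it is scalar

Rank of `schur - 1` from the kernel of `T - 1`; for a fixed `e` at most one hyperplane gives a
scalar Schur complement.
-/

set_option autoImplicit false

namespace Cfsg.Agent.Lib.Helper16.RegUni

open Module

variable {K : Type*} [Field K] {V : Type*} [AddCommGroup V] [Module K V]

/-- The endomorphisms to which the triangular factorisation applies: in dimension one all, in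
higher dimension the non-scalar ones with `T - 1` of rank at least two. -/
def Good (T : V →ₗ[K] V) : Prop :=
  finrank K V = 1 ∨
    ((∀ c : K, T ≠ c • LinearMap.id) ∧ 2 ≤ finrank K (LinearMap.range (T - 1)))

variable (T : V →ₗ[K] V) {e : V} {ψ : Module.Dual K V}

theorem finrank_ker_psi [FiniteDimensional K V] (he : ψ e = 1) :
    finrank K (LinearMap.ker ψ) + 1 = finrank K V := by
  have h := LinearMap.finrank_range_add_finrank_ker ψ
  have hs : LinearMap.range ψ = ⊤ := by
    rw [LinearMap.range_eq_top]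
    intro c
    exact ⟨c • e, by rw [map_smul, he, smul_eq_mul, mul_one]⟩
  rw [hs, finrank_top, Module.finrank_self] at h
  omega

theorem schur_sub_one_coe (h1 : ψ (T e) = 1) (h : LinearMap.ker ψ) :
    ((schur T e ψ h1 - 1) h : V) = T h - h - ψ (T h) • T e := by
  rw [LinearMap.sub_apply, Module.End.one_apply, Submodule.coe_sub, schur_coe]
  abel

theorem mem_ker_schur_sub_one (h1 : ψ (T e) = 1) (h : LinearMap.ker ψ) :
    h ∈ LinearMap.ker (schur T e ψ h1 - 1) ↔ T h - h = ψ (T h) • T e := by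
  rw [LinearMap.mem_ker, ← Subtype.coe_inj, schur_sub_one_coe, ZeroMemClass.coe_zero, sub_eq_zero]

theorem rank_of_ker [FiniteDimensional K V] (he : ψ e = 1) (h1 : ψ (T e) = 1)
    (hk : finrank K (LinearMap.ker (schur T e ψ h1 - 1)) + 3 ≤ finrank K V) :
    2 ≤ finrank K (LinearMap.range (schur T e ψ h1 - 1)) := by
  have h := LinearMap.finrank_range_add_finrank_ker (schur T e ψ h1 - 1)
  have h' := finrank_ker_psi (K := K) he
  omega

theorem fixed_of_mem_ker (h1 : ψ (T e) = 1) (heD : e ∉ LinearMap.range (T - 1))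
    (h : LinearMap.ker ψ) (hh : h ∈ LinearMap.ker (schur T e ψ h1 - 1)) : T h = h := by
  rw [mem_ker_schur_sub_one] at hh
  by_cases hx : ψ (T h) = 0
  · rw [hx, zero_smul, sub_eq_zero] at hh
    exact hh
  · exfalso
    apply heD
    refine ⟨(ψ (T h))⁻¹ • (h : V) - e, ?_⟩
    rw [LinearMap.sub_apply, Module.End.one_apply, map_sub, map_smul]
    have : (ψ (T h))⁻¹ • T (h : V) - T e - ((ψ (T h))⁻¹ • (h : V) - e) =
        (ψ (T h))⁻¹ • (T (h : V) - h) - T e + e := by
      rw [smul_sub]; abel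
    rw [this, hh, smul_smul, inv_mul_cancel₀ hx, one_smul, sub_self, zero_add]

theorem rank_case_A [FiniteDimensional K V] (he : ψ e = 1) (h1 : ψ (T e) = 1)
    (hr : 2 ≤ finrank K (LinearMap.range (T - 1))) (heD : e ∉ LinearMap.range (T - 1))
    (k' : V) (hk' : T k' = k') (hψk : ψ k' ≠ 0) :
    2 ≤ finrank K (LinearMap.range (schur T e ψ h1 - 1)) := by
  apply rank_of_ker T he h1
  have hle : (LinearMap.ker (schur T e ψ h1 - 1)).map (LinearMap.ker ψ).subtype ≤
      LinearMap.ker (T - 1) ⊓ LinearMap.ker ψ := by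
    rintro _ ⟨h, hh, rfl⟩
    refine ⟨?_, h.2⟩
    rw [SetLike.mem_coe, LinearMap.mem_ker, LinearMap.sub_apply, Module.End.one_apply,
      Submodule.subtype_apply, fixed_of_mem_ker T h1 heD h hh, sub_self]
  have hlt : LinearMap.ker (T - 1) ⊓ LinearMap.ker ψ < LinearMap.ker (T - 1) := by
    refine lt_of_le_of_ne inf_le_left ?_
    intro heq
    have hk1 : k' ∈ LinearMap.ker (T - 1) := by
      rw [LinearMap.mem_ker, LinearMap.sub_apply, Module.End.one_apply, hk', sub_self]
    rw [← heq] at hk1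
    exact hψk (LinearMap.mem_ker.1 hk1.2)
  have h2 := Submodule.finrank_mono hle
  rw [Submodule.finrank_map_subtype_eq] at h2
  have h3 := Submodule.finrank_lt_finrank_of_lt hlt
  have h4 := LinearMap.finrank_range_add_finrank_ker (T - 1)
  omega

theorem ker_small_A [FiniteDimensional K V] (h1 : ψ (T e) = 1)
    (heD : e ∉ LinearMap.range (T - 1)) (hk : finrank K (LinearMap.ker (T - 1)) ≤ 1) :
    finrank K (LinearMap.ker (schur T e ψ h1 - 1)) ≤ 1 := by
  have hle : (LinearMap.ker (schur T e ψ h1 - 1)).map (LinearMap.ker ψ).subtype ≤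
      LinearMap.ker (T - 1) := by
    rintro _ ⟨h, hh, rfl⟩
    rw [LinearMap.mem_ker, LinearMap.sub_apply, Module.End.one_apply,
      Submodule.subtype_apply, fixed_of_mem_ker T h1 heD h hh, sub_self]
  have h2 := Submodule.finrank_mono hle
  rw [Submodule.finrank_map_subtype_eq] at h2
  omega

theorem ker_small_B [FiniteDimensional K V] (h1 : ψ (T e) = 1)
    (hinj : Function.Injective (T - 1 : V →ₗ[K] V)) :
    finrank K (LinearMap.ker (schur T e ψ h1 - 1)) ≤ 1 := by
  let g : LinearMap.ker (schur T e ψ h1 - 1) →ₗ[K] K :=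
    ψ ∘ₗ T ∘ₗ (LinearMap.ker ψ).subtype ∘ₗ (LinearMap.ker (schur T e ψ h1 - 1)).subtype
  have hg : Function.Injective g := by
    rw [← LinearMap.ker_eq_bot, LinearMap.ker_eq_bot']
    intro h hh
    have h0 : ψ (T (h : LinearMap.ker ψ)) = 0 := hh
    have hm := (mem_ker_schur_sub_one T h1 (h : LinearMap.ker ψ)).1 h.2
    rw [h0, zero_smul] at hm
    have : (T - 1) ((h : LinearMap.ker ψ) : V) = (T - 1) 0 := by
      rw [map_zero, LinearMap.sub_apply, Module.End.one_apply]; exact hm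
    have h3 := hinj this
    apply Subtype.ext
    apply Subtype.ext
    exact h3
  have := LinearMap.finrank_le_finrank_of_injective hg
  rwa [Module.finrank_self] at this

theorem ker_zero_A (h1 : ψ (T e) = 1) (heD : e ∉ LinearMap.range (T - 1)) (k : V)
    (hker : ∀ v, T v = v → v ∈ K ∙ k) (hψk : ψ k ≠ 0) :
    LinearMap.ker (schur T e ψ h1 - 1) = ⊥ := by
  rw [eq_bot_iff]
  intro h hh
  have hfix := fixed_of_mem_ker T h1 heD h hh
  obtain ⟨c, hc⟩ := Submodule.mem_span_singleton.1 (hker _ hfix)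
  have h0 : ψ (h : V) = 0 := psi_coe h
  rw [← hc, map_smul, smul_eq_mul] at h0
  have hc0 : c = 0 := (mul_eq_zero.1 h0).resolve_right hψk
  rw [Submodule.mem_bot]
  apply Subtype.ext
  rw [← hc, hc0, zero_smul]
  rfl

theorem ker_zero_B (h1 : ψ (T e) = 1) (hinj : Function.Injective (T - 1 : V →ₗ[K] V)) (g : V)
    (hg : T g - g = T e) (hψg : ψ g ≠ 0) :
    LinearMap.ker (schur T e ψ h1 - 1) = ⊥ := by
  rw [eq_bot_iff]
  intro h hh
  have hm := (mem_ker_schur_sub_one T h1 h).1 hh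
  have heq : (T - 1) (h : V) = (T - 1) (ψ (T h) • g) := by
    rw [LinearMap.sub_apply, Module.End.one_apply, LinearMap.sub_apply, Module.End.one_apply,
      map_smul, ← smul_sub, hg, hm]
  have h3 := hinj heq
  have h0 : ψ (h : V) = 0 := psi_coe h
  rw [h3, map_smul, smul_eq_mul] at h0
  have hx : ψ (T h) = 0 := (mul_eq_zero.1 h0).resolve_right hψg
  rw [hx, zero_smul] at h3
  rw [Submodule.mem_bot]
  apply Subtype.ext
  rw [h3]
  rfl

/-- A vector fixed by `T` in `ker ψ` forces a scalar Schur complement to be the identity. -/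
theorem not_scalar_of_fixed [FiniteDimensional K V] (h1 : ψ (T e) = 1)
    (hr : 2 ≤ finrank K (LinearMap.range (schur T e ψ h1 - 1)))
    (k : V) (hk0 : k ≠ 0) (hk : T k = k) (hψk : ψ k = 0) (c : K) :
    schur T e ψ h1 ≠ c • LinearMap.id := by
  intro hs
  have h2 := congrArg (fun f => ((f (⟨k, LinearMap.mem_ker.2 hψk⟩ : LinearMap.ker ψ)) : V)) hs
  simp only [schur_coe, LinearMap.smul_apply, LinearMap.id_apply, Submodule.coe_smul] at h2
  rw [hk, hψk, zero_smul, sub_zero] at h2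
  have hc : c = 1 := by
    by_contra hc
    have : (1 - c) • k = 0 := by rw [sub_smul, one_smul, ← h2, sub_self]
    exact hk0 ((smul_eq_zero.1 this).resolve_left (sub_ne_zero.2 (Ne.symm hc)))
  have hz : schur T e ψ h1 - 1 = 0 := by
    rw [hs, hc, one_smul]
    exact sub_self _
  rw [hz, LinearMap.range_zero, finrank_bot] at hr
  omega

/-- For a fixed `e`, at most one functional gives a scalar Schur complement. -/
theorem bad_unique [FiniteDimensional K V] (hn : 3 ≤ finrank K V)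
    (hT : Function.Injective T) (hne : ∀ c : K, T e ≠ c • e)
    (ψ₁ ψ₂ : Module.Dual K V) (he₁ : ψ₁ e = 1) (h1₁ : ψ₁ (T e) = 1) (he₂ : ψ₂ e = 1)
    (h1₂ : ψ₂ (T e) = 1) (c₁ c₂ : K) (hs₁ : schur T e ψ₁ h1₁ = c₁ • LinearMap.id)
    (hs₂ : schur T e ψ₂ h1₂ = c₂ • LinearMap.id) : ψ₁ = ψ₂ := by
  by_contra hne12
  have hv₁ : ∀ h, ψ₁ h = 0 → T h - ψ₁ (T h) • T e = c₁ • h := by
    intro h hh
    have h2 := congrArg (fun f => ((f (⟨h, LinearMap.mem_ker.2 hh⟩ : LinearMap.ker ψ₁)) : V)) hs₁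
    simpa only [schur_coe, LinearMap.smul_apply, LinearMap.id_apply, Submodule.coe_smul] using h2
  have hv₂ : ∀ h, ψ₂ h = 0 → T h - ψ₂ (T h) • T e = c₂ • h := by
    intro h hh
    have h2 := congrArg (fun f => ((f (⟨h, LinearMap.mem_ker.2 hh⟩ : LinearMap.ker ψ₂)) : V)) hs₂
    simpa only [schur_coe, LinearMap.smul_apply, LinearMap.id_apply, Submodule.coe_smul] using h2
  have he0 : e ≠ 0 := fun h => by rw [h, map_zero] at he₁; exact zero_ne_one he₁
  have hTe0 : T e ≠ 0 := fun h => hne 0 (by rw [h, zero_smul])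
  -- a common kernel vector
  have hker : LinearMap.ker (ψ₁.prod ψ₂) ≠ ⊥ := by
    apply LinearMap.ker_ne_bot_of_finrank_lt
    rw [Module.finrank_prod, Module.finrank_self]
    omega
  obtain ⟨h₀, hh₀, hh₀0⟩ := (Submodule.ne_bot_iff _).1 hker
  have hh₁ : ψ₁ h₀ = 0 := by
    have := congrArg Prod.fst (LinearMap.mem_ker.1 hh₀)
    simpa using this
  have hh₂ : ψ₂ h₀ = 0 := by
    have := congrArg Prod.snd (LinearMap.mem_ker.1 hh₀)
    simpa using this
  -- the scalars agree
  have hc : c₁ = c₂ := by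
    by_contra hc
    have e1 := hv₁ h₀ hh₁
    have e2 := hv₂ h₀ hh₂
    have e3 : (c₁ - c₂) • h₀ = (ψ₂ (T h₀) - ψ₁ (T h₀)) • T e := by
      rw [sub_smul, sub_smul, ← e1, ← e2]; abel
    have e4 : h₀ = ((c₁ - c₂)⁻¹ * (ψ₂ (T h₀) - ψ₁ (T h₀))) • T e := by
      rw [← smul_smul, ← e3, smul_smul, inv_mul_cancel₀ (sub_ne_zero.2 hc), one_smul]
    have e5 : (c₁ - c₂)⁻¹ * (ψ₂ (T h₀) - ψ₁ (T h₀)) = 0 := by
      have := hh₁
      rw [e4, map_smul, h1₁, smul_eq_mul, mul_one] at this
      exact this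
    rw [e5, zero_smul] at e4
    exact hh₀0 e4
  subst hc
  -- a vector separating the functionals
  obtain ⟨v₀, hv₀⟩ : ∃ v₀, ψ₁ v₀ ≠ ψ₂ v₀ := by
    by_contra hall
    push Not at hall
    exact hne12 (LinearMap.ext hall)
  set z := v₀ - ψ₁ v₀ • e with hz
  have hz1 : ψ₁ z = 0 := by rw [hz, map_sub, map_smul, he₁, smul_eq_mul, mul_one, sub_self]
  have hz2 : ψ₂ z ≠ 0 := by
    rw [hz, map_sub, map_smul, he₂, smul_eq_mul, mul_one]
    exact sub_ne_zero.2 (Ne.symm hv₀)
  set x := (ψ₂ z)⁻¹ with hx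
  set h₂ := e - x • z with hh2
  have hh2' : ψ₂ h₂ = 0 := by
    rw [hh2, map_sub, map_smul, he₂, hx, smul_eq_mul, inv_mul_cancel₀ hz2, sub_self]
  have e1 := hv₁ z hz1
  have e2 := hv₂ h₂ hh2'
  set t := ψ₂ (T h₂) + x * ψ₁ (T z) with ht
  have key : (1 - t) • T e = c₁ • e := by
    have hTe : T e = T h₂ + x • T z := by
      rw [hh2, map_sub, map_smul]; abel
    have e1' : T z = c₁ • z + ψ₁ (T z) • T e := by rw [← e1]; abel
    have e2' : T h₂ = c₁ • h₂ + ψ₂ (T h₂) • T e := by rw [← e2]; abel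
    have : T e = c₁ • e + t • T e := by
      conv_lhs => rw [hTe, e2']
      conv_lhs => rw [e1']
      rw [hh2, ht]
      simp only [smul_sub, smul_add, smul_smul, add_smul]
      rw [mul_comm c₁ x]
      abel
    rw [sub_smul, one_smul, sub_eq_iff_eq_add]
    exact this
  by_cases ht1 : t = 1
  · rw [ht1, sub_self, zero_smul] at key
    have hc0 : c₁ = 0 := (smul_eq_zero.1 key.symm).resolve_right he0
    have e3 := hv₁ h₀ hh₁
    rw [hc0, zero_smul, sub_eq_zero] at e3
    have e4 : T h₀ = T (ψ₁ (T h₀) • e) := by rw [map_smul]; exact e3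
    have e5 := hT e4
    have e6 : ψ₁ (T h₀) = 0 := by
      have := hh₁
      rw [e5, map_smul, he₁, smul_eq_mul, mul_one] at this
      exact this
    rw [e6, zero_smul] at e5
    exact hh₀0 e5
  · apply hne ((1 - t)⁻¹ * c₁)
    rw [← smul_smul, ← key, smul_smul, inv_mul_cancel₀ (sub_ne_zero.2 (Ne.symm ht1)), one_smul]

/-- A vector `x₅` outside the line of `T e - e` such that `ψ x₅ ≠ 0` prevents the Schur complement
from being scalar. -/
theorem exists_x5 [FiniteDimensional K V] (hn : 3 ≤ finrank K V)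
    (hT : Function.Injective T) (hne : ∀ c : K, T e ≠ c • e) :
    ∃ x₅ : V, x₅ ∉ K ∙ (T e - e) ∧ ∀ (ψ : Module.Dual K V) (_he : ψ e = 1) (h1 : ψ (T e) = 1),
      ψ x₅ ≠ 0 → ∀ c : K, schur T e ψ h1 ≠ c • LinearMap.id := by
  by_cases hbad : ∃ (ψ₁ : Module.Dual K V) (_ : ψ₁ e = 1) (h1₁ : ψ₁ (T e) = 1) (c₁ : K),
      schur T e ψ₁ h1₁ = c₁ • LinearMap.id
  · obtain ⟨ψ₁, he₁, h1₁, c₁, hs₁⟩ := hbad
    have hfr := finrank_ker_psi (K := K) he₁
    have hex : ∃ x₅ ∈ LinearMap.ker ψ₁, x₅ ∉ K ∙ (T e - e) := by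
      by_contra hall
      push Not at hall
      have hle : LinearMap.ker ψ₁ ≤ K ∙ (T e - e) := fun x hx => hall x hx
      have h2 := Submodule.finrank_mono hle
      have h3 : finrank K (K ∙ (T e - e)) ≤ 1 := by
        by_cases h0 : T e - e = 0
        · rw [h0, Submodule.span_zero_singleton, finrank_bot]; omega
        · rw [finrank_span_singleton h0]
      omega
    obtain ⟨x₅, hx₅, hx₅'⟩ := hex
    refine ⟨x₅, hx₅', ?_⟩
    intro ψ he h1 hψx c hs
    have := bad_unique T hn hT hne ψ ψ₁ he h1 he₁ h1₁ c c₁ hs hs₁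
    rw [this] at hψx
    exact hψx (LinearMap.mem_ker.1 hx₅)
  · refine ⟨e, ?_, ?_⟩
    · intro hmem
      obtain ⟨a, ha⟩ := Submodule.mem_span_singleton.1 hmem
      have ha0 : a ≠ 0 := by
        intro h
        rw [h, zero_smul] at ha
        exact hne 0 (by rw [← ha, map_zero, smul_zero])
      apply hne (1 + a⁻¹)
      have : T e - e = a⁻¹ • e := by
        rw [eq_inv_smul_iff₀ ha0]; exact ha
      rw [add_smul, one_smul, ← this]
      abel
    · intro ψ he h1 _ c hs
      exact hbad ⟨ψ, he, h1, c, hs⟩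

end Cfsg.Agent.Lib.Helper16.RegUni
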