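import Mathlib
import Cfsg.Agent.Lib.Helper16.RegUni.Avoid
import Cfsg.Agent.Lib.Helper16.RegUni.NonEig
import Cfsg.Agent.Lib.Helper16.RegUni.Step
import Cfsg.Agent.Lib.Helper16.RegUni.Rank
import Cfsg.Agent.Lib.Helper16.RegUni.Det3

/-!
# Choice of the first vector and the hyperplane

For a good `T` (determinant one, non-scalar, `T - 1` of rank at least two) on a space of dimension
at least two over a field with at least four elements, and for nonzero `φ`, `y`: a vector `e` and
a functional `ψ` with `ψ e = ψ (T e) = 1`, `φ e ≠ 0`, `ψ y ≠ 0`, `ψ ∘ T` not zero on `ker ψ`, and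
a good Schur complement.
-/

set_option autoImplicit false

namespace Cfsg.Agent.Lib.Helper16.RegUni

open Module

variable {K : Type*} [Field K] {V : Type*} [AddCommGroup V] [Module K V]

/-- The outcome of the choice. -/
def ChoiceOK (T : V →ₗ[K] V) (φ : Module.Dual K V) (y : V) : Prop :=
  ∃ (e : V) (ψ : Module.Dual K V) (_ : ψ e = 1) (h1 : ψ (T e) = 1),
    T e ≠ e ∧ φ e ≠ 0 ∧ ψ y ≠ 0 ∧ (∃ k, ψ k = 0 ∧ ψ (T k) ≠ 0) ∧ Good (schur T e ψ h1)

theorem e_notMem_span_d (T : V →ₗ[K] V) (e : V) (hne : ∀ c : K, T e ≠ c • e) :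
    e ∉ K ∙ (T e - e) := by
  intro hmem
  obtain ⟨a, ha⟩ := Submodule.mem_span_singleton.1 hmem
  have ha0 : a ≠ 0 := by
    intro h
    rw [h, zero_smul] at ha
    exact hne 0 (by rw [← ha, map_zero, smul_zero])
  apply hne (1 + a⁻¹)
  have : T e - e = a⁻¹ • e := by
    rw [eq_inv_smul_iff₀ ha0]; exact ha
  rw [add_smul, one_smul, ← this]
  abel

theorem finrank_span_singleton_le_one [FiniteDimensional K V] (d : V) :
    finrank K (K ∙ d) ≤ 1 := by
  by_cases h0 : d = 0
  · rw [h0, Submodule.span_zero_singleton, finrank_bot]; omega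
  · rw [finrank_span_singleton h0]

theorem choose_psi_norm (hK : ∃ c : Fin 4 → K, Function.Injective c) (T : V →ₗ[K] V) (e : V)
    (hne : ∀ c : K, T e ≠ c • e) (x₂ x₃ x₄ : V) (h₂ : x₂ ∉ K ∙ (T e - e))
    (h₃ : x₃ ∉ K ∙ (T e - e)) (h₄ : x₄ ∉ K ∙ (T e - e)) :
    ∃ ψ : Module.Dual K V, ψ e = 1 ∧ ψ (T e) = 1 ∧ ψ x₂ ≠ 0 ∧ ψ x₃ ≠ 0 ∧ ψ x₄ ≠ 0 := by
  obtain ⟨ψ₀, hU, k1, k2, k3, k4⟩ := choose_psi hK (K ∙ (T e - e)) e x₂ x₃ x₄
    (e_notMem_span_d T e hne) h₂ h₃ h₄
  have hd : ψ₀ (T e - e) = 0 := hU _ (Submodule.mem_span_singleton_self _)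
  have hTe : ψ₀ (T e) = ψ₀ e := by rw [map_sub] at hd; exact sub_eq_zero.1 hd
  have hinv : (ψ₀ e)⁻¹ ≠ 0 := inv_ne_zero k1
  refine ⟨(ψ₀ e)⁻¹ • ψ₀, ?_, ?_, ?_, ?_, ?_⟩
  · rw [LinearMap.smul_apply, smul_eq_mul, inv_mul_cancel₀ k1]
  · rw [LinearMap.smul_apply, smul_eq_mul, hTe, inv_mul_cancel₀ k1]
  · rw [LinearMap.smul_apply, smul_eq_mul]; exact mul_ne_zero hinv k2
  · rw [LinearMap.smul_apply, smul_eq_mul]; exact mul_ne_zero hinv k3
  · rw [LinearMap.smul_apply, smul_eq_mul]; exact mul_ne_zero hinv k4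

theorem cond_d (T : V →ₗ[K] V) {e : V} {ψ : Module.Dual K V} (he : ψ e = 1)
    (h1 : ψ (T e) = 1) (k₀ : V) (h : ψ (T k₀ - k₀) ≠ 0) : ∃ k, ψ k = 0 ∧ ψ (T k) ≠ 0 := by
  refine ⟨k₀ - ψ k₀ • e, by rw [map_sub, map_smul, he, smul_eq_mul, mul_one, sub_self], ?_⟩
  rw [map_sub, map_smul, map_sub, map_smul, h1, smul_eq_mul, mul_one]
  rwa [map_sub] at h

theorem sub_one_apply' (T : V →ₗ[K] V) (v : V) : (T - 1 : V →ₗ[K] V) v = T v - v := by
  rw [LinearMap.sub_apply, Module.End.one_apply]

theorem exists_f2 [FiniteDimensional K V] (T : V →ₗ[K] V)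
    (hr : 2 ≤ finrank K (LinearMap.range (T - 1 : V →ₗ[K] V))) (y : V) (hy : y ≠ 0) :
    ∃ f₂ : Module.Dual K V, f₂ ≠ 0 ∧ ∀ e, f₂ e ≠ 0 → y ∉ K ∙ (T e - e) := by
  have hcomap : (K ∙ y).comap (T - 1 : V →ₗ[K] V) < ⊤ := by
    rw [lt_top_iff_ne_top]
    intro htop
    have hle : LinearMap.range (T - 1 : V →ₗ[K] V) ≤ K ∙ y := by
      rintro _ ⟨v, rfl⟩
      have : v ∈ (K ∙ y).comap (T - 1 : V →ₗ[K] V) := by rw [htop]; trivial
      exact this
    have := Submodule.finrank_mono hle
    rw [finrank_span_singleton hy] at this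
    omega
  obtain ⟨f₂, hf₂, hf₂le⟩ := Submodule.exists_le_ker_of_lt_top _ hcomap
  refine ⟨f₂, hf₂, ?_⟩
  intro e hf hmem
  obtain ⟨a, ha⟩ := Submodule.mem_span_singleton.1 hmem
  have ha0 : a ≠ 0 := by
    intro h
    rw [h, zero_smul] at ha
    exact hy ha.symm
  apply hf
  have : e ∈ (K ∙ y).comap (T - 1 : V →ₗ[K] V) := by
    rw [Submodule.mem_comap, sub_one_apply', Submodule.mem_span_singleton]
    exact ⟨a⁻¹, by rw [← ha, smul_smul, inv_mul_cancel₀ ha0, one_smul]⟩
  exact LinearMap.mem_ker.1 (hf₂le this)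

theorem exists_k0 [FiniteDimensional K V] (T : V →ₗ[K] V)
    (hr : 2 ≤ finrank K (LinearMap.range (T - 1 : V →ₗ[K] V))) (d : V) :
    ∃ k₀, T k₀ - k₀ ∉ K ∙ d := by
  by_contra hall
  push Not at hall
  have hle : LinearMap.range (T - 1 : V →ₗ[K] V) ≤ K ∙ d := by
    rintro _ ⟨v, rfl⟩
    rw [sub_one_apply']; exact hall v
  have h2 := Submodule.finrank_mono hle
  have h3 := finrank_span_singleton_le_one (K := K) d
  omega

/-- Dimension two. -/
theorem choice2 (hK : ∃ c : Fin 4 → K, Function.Injective c) [FiniteDimensional K V]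
    (hn : finrank K V = 2) (T : V →ₗ[K] V) (hns : ∀ c : K, T ≠ c • LinearMap.id)
    (hr : 2 ≤ finrank K (LinearMap.range (T - 1 : V →ₗ[K] V))) (φ : Module.Dual K V) (y : V)
    (hφ : φ ≠ 0) (hy : y ≠ 0) : ChoiceOK T φ y := by
  have hsurj : LinearMap.range (T - 1 : V →ₗ[K] V) = ⊤ := by
    apply Submodule.eq_top_of_finrank_eq
    have := Submodule.finrank_le (LinearMap.range (T - 1 : V →ₗ[K] V))
    omega
  have hDsurj : Function.Surjective (T - 1 : V →ₗ[K] V) := LinearMap.range_eq_top.1 hsurj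
  have hDinj : Function.Injective (T - 1 : V →ₗ[K] V) :=
    LinearMap.injective_iff_surjective.2 hDsurj
  obtain ⟨f₂, hf₂, hf₂y⟩ := exists_f2 T hr y hy
  obtain ⟨e, e1, e2, hne⟩ := exists_noneig2 hK T hns φ f₂ hφ hf₂
  have hyd := hf₂y e e2
  have hTee : T e ≠ e := fun h => hne 1 (by rw [h, one_smul])
  have hDD : T (T e - e) - (T e - e) ∉ K ∙ (T e - e) := by
    intro hmem
    obtain ⟨a, ha⟩ := Submodule.mem_span_singleton.1 hmem
    have h0 : (T - 1 : V →ₗ[K] V) (T e - e - a • e) = (T - 1 : V →ₗ[K] V) 0 := by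
      rw [map_zero, map_sub, map_smul, sub_one_apply', sub_one_apply', ← ha, sub_self]
    have h1 := hDinj h0
    apply hne (1 + a)
    rw [add_smul, one_smul]
    have : T e = e + a • e := by
      rw [sub_sub, sub_eq_zero] at h1; exact h1
    exact this
  obtain ⟨ψ, he, h1, p2, p3, -⟩ := choose_psi_norm hK T e hne y (T (T e - e) - (T e - e)) y
    hyd hDD hyd
  refine ⟨e, ψ, he, h1, hTee, e1, p2, cond_d T he h1 (T e - e) p3, Or.inl ?_⟩
  have := finrank_ker_psi (K := K) he
  omega

/-- Dimension at least three. -/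
theorem choice3 (hK : ∃ c : Fin 4 → K, Function.Injective c) [FiniteDimensional K V]
    (hn : 3 ≤ finrank K V) (T : V →ₗ[K] V) (hdet : LinearMap.det T = 1)
    (hns : ∀ c : K, T ≠ c • LinearMap.id)
    (hr : 2 ≤ finrank K (LinearMap.range (T - 1 : V →ₗ[K] V))) (φ : Module.Dual K V) (y : V)
    (hφ : φ ≠ 0) (hy : y ≠ 0) : ChoiceOK T φ y := by
  have hTinj : Function.Injective T := by
    rw [← LinearMap.ker_eq_bot]
    by_contra hker
    have := (LinearMap.det_eq_zero_iff_ker_ne_bot).2 hker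
    rw [hdet] at this
    exact one_ne_zero this
  obtain ⟨f₂, hf₂, hf₂y⟩ := exists_f2 T hr y hy
  by_cases hsurj : LinearMap.range (T - 1 : V →ₗ[K] V) = ⊤
  · -- `T - 1` bijective
    have hDsurj : Function.Surjective (T - 1 : V →ₗ[K] V) := LinearMap.range_eq_top.1 hsurj
    have hDinj : Function.Injective (T - 1 : V →ₗ[K] V) :=
      LinearMap.injective_iff_surjective.2 hDsurj
    obtain ⟨e, e1, e2, -, hne⟩ := exists_noneig3 hK hn T hns φ f₂ φ hφ hf₂ hφ
    have hyd := hf₂y e e2
    have hTee : T e ≠ e := fun h => hne 1 (by rw [h, one_smul])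
    obtain ⟨x₅, hx₅, hx₅'⟩ := exists_x5 T hn hTinj hne
    obtain ⟨k₀, hk₀e⟩ := hDsurj e
    have hd_all : ∀ ψ : Module.Dual K V, ψ e = 1 → ψ (T e) = 1 →
        ∃ k, ψ k = 0 ∧ ψ (T k) ≠ 0 := by
      intro ψ he h1
      apply cond_d T he h1 k₀
      rw [← sub_one_apply', hk₀e, he]
      exact one_ne_zero
    by_cases h4 : 4 ≤ finrank K V
    · obtain ⟨ψ, he, h1, p2, p3, -⟩ := choose_psi_norm hK T e hne y x₅ y hyd hx₅ hyd
      refine ⟨e, ψ, he, h1, hTee, e1, p2, hd_all ψ he h1, Or.inr ⟨hx₅' ψ he h1 p3, ?_⟩⟩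
      apply rank_of_ker T he h1
      have := ker_small_B T h1 hDinj
      omega
    · have h3 : finrank K V = 3 := by omega
      obtain ⟨g, hg⟩ := hDsurj (T e)
      have hg' : T g - g = T e := by rw [← sub_one_apply']; exact hg
      have hTe0 : T e ≠ 0 := fun h => hne 0 (by rw [h, zero_smul])
      have hgd : g ∉ K ∙ (T e - e) := by
        intro hmem
        obtain ⟨a, ha⟩ := Submodule.mem_span_singleton.1 hmem
        have ha0 : a ≠ 0 := by
          intro h
          rw [h, zero_smul] at ha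
          rw [← ha, map_zero, sub_zero] at hg'
          exact hTe0 hg'.symm
        have hg2 : a • (T (T e - e) - (T e - e)) = T e := by
          rw [smul_sub, ← map_smul, ha]; exact hg'
        have hl : T (T e - e) - (T e - e) = a⁻¹ • T e := by
          rw [eq_inv_smul_iff₀ ha0]; exact hg2
        have hrange := det3_range h3 T hdet e hne a⁻¹ hl
        have hle : (⊤ : Submodule K V) ≤ Submodule.span K {e, T e - e} := by
          rw [← hsurj]
          rintro _ ⟨v, rfl⟩
          rw [sub_one_apply']; exact hrange v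
        have h5 := Submodule.finrank_mono hle
        rw [finrank_top] at h5
        have h6 := finrank_span_pair_le (K := K) e (T e - e)
        omega
      obtain ⟨ψ, he, h1, p2, p3, p4⟩ := choose_psi_norm hK T e hne y g x₅ hyd hgd hx₅
      refine ⟨e, ψ, he, h1, hTee, e1, p2, hd_all ψ he h1, Or.inr ⟨hx₅' ψ he h1 p4, ?_⟩⟩
      apply rank_of_ker T he h1
      rw [ker_zero_B T h1 hDinj g hg' p3, finrank_bot]
      omega
  · -- `T - 1` not surjective
    have hlt : LinearMap.range (T - 1 : V →ₗ[K] V) < ⊤ := lt_top_iff_ne_top.2 hsurj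
    obtain ⟨f₃, hf₃, hf₃le⟩ := Submodule.exists_le_ker_of_lt_top _ hlt
    obtain ⟨e, e1, e2, e3, hne⟩ := exists_noneig3 hK hn T hns φ f₂ f₃ hφ hf₂ hf₃
    have heD : e ∉ LinearMap.range (T - 1 : V →ₗ[K] V) :=
      fun h => e3 (LinearMap.mem_ker.1 (hf₃le h))
    have hyd := hf₂y e e2
    have hTee : T e ≠ e := fun h => hne 1 (by rw [h, one_smul])
    obtain ⟨k₀, hk₀d⟩ := exists_k0 T hr (T e - e)
    have hDninj : LinearMap.ker (T - 1 : V →ₗ[K] V) ≠ ⊥ := by
      intro hbot
      exact hsurj (LinearMap.range_eq_top.2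
        (LinearMap.injective_iff_surjective.1 (LinearMap.ker_eq_bot.1 hbot)))
    have hfixmem : ∀ v, v ∈ LinearMap.ker (T - 1 : V →ₗ[K] V) ↔ T v = v := by
      intro v
      rw [LinearMap.mem_ker, sub_one_apply', sub_eq_zero]
    by_cases hk2 : 2 ≤ finrank K (LinearMap.ker (T - 1 : V →ₗ[K] V))
    · -- the fixed space has dimension at least two
      have hex : ∃ k' ∈ LinearMap.ker (T - 1 : V →ₗ[K] V), k' ∉ K ∙ (T e - e) := by
        by_contra hall
        push Not at hall
        have hle : LinearMap.ker (T - 1 : V →ₗ[K] V) ≤ K ∙ (T e - e) := fun x hx => hall x hx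
        have h2 := Submodule.finrank_mono hle
        have h3 := finrank_span_singleton_le_one (K := K) (T e - e)
        omega
      obtain ⟨k', hk'ker, hk'd⟩ := hex
      have hk'fix : T k' = k' := (hfixmem k').1 hk'ker
      obtain ⟨ψ, he, h1, p2, p3, p4⟩ := choose_psi_norm hK T e hne y (T k₀ - k₀) k' hyd hk₀d hk'd
      have hrank := rank_case_A T he h1 hr heD k' hk'fix p4
      have hker2 : LinearMap.ker (ψ ∘ₗ (LinearMap.ker (T - 1 : V →ₗ[K] V)).subtype) ≠ ⊥ := by
        apply LinearMap.ker_ne_bot_of_finrank_lt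
        rw [Module.finrank_self]
        omega
      obtain ⟨k'', hk''mem, hk''0⟩ := (Submodule.ne_bot_iff _).1 hker2
      have hk''fix : T (k'' : V) = k'' := (hfixmem _).1 k''.2
      have hk''ψ : ψ (k'' : V) = 0 := LinearMap.mem_ker.1 hk''mem
      refine ⟨e, ψ, he, h1, hTee, e1, p2, cond_d T he h1 k₀ p3, Or.inr ⟨?_, hrank⟩⟩
      intro c
      exact not_scalar_of_fixed T h1 hrank (k'' : V) (fun h => hk''0 (Subtype.ext h)) hk''fix
        hk''ψ c
    · -- the fixed space is a line
      have hk1 : finrank K (LinearMap.ker (T - 1 : V →ₗ[K] V)) ≤ 1 := by omega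
      obtain ⟨k, hkmem, hk0⟩ := (Submodule.ne_bot_iff _).1 hDninj
      have hkfix : T k = k := (hfixmem k).1 hkmem
      have hkspan : ∀ v, T v = v → v ∈ K ∙ k := by
        intro v hv
        have hvker : v ∈ LinearMap.ker (T - 1 : V →ₗ[K] V) := (hfixmem v).2 hv
        have h1' : finrank K (LinearMap.ker (T - 1 : V →ₗ[K] V)) = 1 := by
          have : finrank K (LinearMap.ker (T - 1 : V →ₗ[K] V)) ≠ 0 := by
            intro h0
            exact hDninj (Submodule.finrank_eq_zero.1 h0)
          omega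
        obtain ⟨c, hc⟩ := (finrank_eq_one_iff_of_nonzero'
          (⟨k, hkmem⟩ : LinearMap.ker (T - 1 : V →ₗ[K] V))
          (fun h => hk0 (congrArg Subtype.val h))).1 h1' ⟨v, hvker⟩
        rw [Submodule.mem_span_singleton]
        exact ⟨c, congrArg Subtype.val hc⟩
      obtain ⟨x₅, hx₅, hx₅'⟩ := exists_x5 T hn hTinj hne
      by_cases h4 : 4 ≤ finrank K V
      · obtain ⟨ψ, he, h1, p2, p3, p4⟩ :=
          choose_psi_norm hK T e hne y (T k₀ - k₀) x₅ hyd hk₀d hx₅
        refine ⟨e, ψ, he, h1, hTee, e1, p2, cond_d T he h1 k₀ p3,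
          Or.inr ⟨hx₅' ψ he h1 p4, ?_⟩⟩
        apply rank_of_ker T he h1
        have := ker_small_A T h1 heD hk1
        omega
      · have h3 : finrank K V = 3 := by omega
        by_cases hbad : ∃ (ψ₁ : Module.Dual K V) (_ : ψ₁ e = 1) (h1₁ : ψ₁ (T e) = 1) (c₁ : K),
            schur T e ψ₁ h1₁ = c₁ • LinearMap.id
        · obtain ⟨ψ₁, he₁, h1₁, c₁, hs₁⟩ := hbad
          have hv₁ : ∀ h, ψ₁ h = 0 → T h - ψ₁ (T h) • T e = c₁ • h := by
            intro h hh
            have h2 := congrArg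
              (fun f => ((f (⟨h, LinearMap.mem_ker.2 hh⟩ : LinearMap.ker ψ₁)) : V)) hs₁
            simpa only [schur_coe, LinearMap.smul_apply, LinearMap.id_apply,
              Submodule.coe_smul] using h2
          have hc1 : c₁ ≠ 1 := by
            intro hc
            have hle : LinearMap.ker ψ₁ ≤ LinearMap.ker (T - 1 : V →ₗ[K] V) := by
              intro h hh
              have hmem : (⟨h, hh⟩ : LinearMap.ker ψ₁) ∈
                  LinearMap.ker (schur T e ψ₁ h1₁ - 1) := by
                rw [hs₁, hc, one_smul, LinearMap.mem_ker, LinearMap.sub_apply,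
                  Module.End.one_apply, LinearMap.id_apply, sub_self]
              exact (hfixmem h).2 (fixed_of_mem_ker T h1₁ heD ⟨h, hh⟩ hmem)
            have h5 := Submodule.finrank_mono hle
            have h6 := finrank_ker_psi (K := K) he₁
            omega
          have hψ₁k : ψ₁ k ≠ 0 := by
            intro h0
            have h2 := hv₁ k h0
            rw [hkfix, h0, zero_smul, sub_zero] at h2
            have : (1 - c₁) • k = 0 := by rw [sub_smul, one_smul, ← h2, sub_self]
            exact hk0 ((smul_eq_zero.1 this).resolve_left (sub_ne_zero.2 (Ne.symm hc1)))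
          obtain ⟨ψ, he, h1, p2, p3, p4⟩ :=
            choose_psi_norm hK T e hne y (T k₀ - k₀) x₅ hyd hk₀d hx₅
          have hψk : ψ k ≠ 0 := by
            have hh1 : ψ₁ (k - ψ₁ k • e) = 0 := by
              rw [map_sub, map_smul, he₁, smul_eq_mul, mul_one, sub_self]
            have h2 := hv₁ _ hh1
            have hTh : T (k - ψ₁ k • e) = k - ψ₁ k • T e := by rw [map_sub, map_smul, hkfix]
            have hψ₁Th : ψ₁ (T (k - ψ₁ k • e)) = 0 := by
              rw [hTh, map_sub, map_smul, h1₁, smul_eq_mul, mul_one, sub_self]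
            rw [hψ₁Th, zero_smul, sub_zero, hTh] at h2
            have h3' := congrArg ψ h2
            simp only [map_sub, map_smul, h1, he, smul_eq_mul, mul_one] at h3'
            have h4' : (1 - c₁) * (ψ k - ψ₁ k) = 0 := by linear_combination h3'
            rcases mul_eq_zero.1 h4' with h | h
            · exact absurd (sub_eq_zero.1 h).symm hc1
            · rw [sub_eq_zero.1 h]; exact hψ₁k
          refine ⟨e, ψ, he, h1, hTee, e1, p2, cond_d T he h1 k₀ p3,
            Or.inr ⟨hx₅' ψ he h1 p4, ?_⟩⟩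
          apply rank_of_ker T he h1
          rw [ker_zero_A T h1 heD k hkspan hψk, finrank_bot]
          omega
        · have hkd : k ∉ K ∙ (T e - e) := by
            intro hmem
            obtain ⟨a, ha⟩ := Submodule.mem_span_singleton.1 hmem
            have ha0 : a ≠ 0 := by
              intro h
              rw [h, zero_smul] at ha
              exact hk0 ha.symm
            have hfix : T (T e - e) = T e - e := by
              have : a • T (T e - e) = a • (T e - e) := by rw [← map_smul, ha, hkfix]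
              exact smul_right_injective V ha0 this
            have hl : T (T e - e) - (T e - e) = (0 : K) • T e := by
              rw [hfix, sub_self, zero_smul]
            have hrange := det3_range h3 T hdet e hne 0 hl
            have hle : LinearMap.range (T - 1 : V →ₗ[K] V) ≤ Submodule.span K {e, T e - e} := by
              rintro _ ⟨v, rfl⟩
              rw [sub_one_apply']; exact hrange v
            have hlt' : LinearMap.range (T - 1 : V →ₗ[K] V) < Submodule.span K {e, T e - e} := by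
              refine lt_of_le_of_ne hle ?_
              intro heq
              apply heD
              rw [heq]
              exact Submodule.subset_span (by simp)
            have h5 := Submodule.finrank_lt_finrank_of_lt hlt'
            have h6 := finrank_span_pair_le (K := K) e (T e - e)
            omega
          obtain ⟨ψ, he, h1, p2, p3, p4⟩ :=
            choose_psi_norm hK T e hne y (T k₀ - k₀) k hyd hk₀d hkd
          refine ⟨e, ψ, he, h1, hTee, e1, p2, cond_d T he h1 k₀ p3, Or.inr ⟨?_, ?_⟩⟩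
          · intro c hs
            exact hbad ⟨ψ, he, h1, c, hs⟩
          · apply rank_of_ker T he h1
            rw [ker_zero_A T h1 heD k hkspan p4, finrank_bot]
            omega

/-- The choice, in any dimension at least two. -/
theorem choice (hK : ∃ c : Fin 4 → K, Function.Injective c) [FiniteDimensional K V]
    (hn : 2 ≤ finrank K V) (T : V →ₗ[K] V) (hdet : LinearMap.det T = 1)
    (hns : ∀ c : K, T ≠ c • LinearMap.id)
    (hr : 2 ≤ finrank K (LinearMap.range (T - 1 : V →ₗ[K] V))) (φ : Module.Dual K V) (y : V)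
    (hφ : φ ≠ 0) (hy : y ≠ 0) : ChoiceOK T φ y := by
  by_cases h2 : finrank K V = 2
  · exact choice2 hK h2 T hns hr φ y hφ hy
  · exact choice3 hK (by omega) T hdet hns hr φ y hφ hy

end Cfsg.Agent.Lib.Helper16.RegUni
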