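import Mathlib
import Cfsg.Agent.Lib.Helper16.RegUni.Avoid
import Cfsg.Agent.Lib.Helper16.RegUni.Step
import Cfsg.Agent.Lib.Helper16.RegUni.Rank
import Cfsg.Agent.Lib.Helper16.RegUni.Choice

/-!
# Every non-scalar endomorphism of determinant one is a product of two regular unipotents

`K` a field with at least four elements, `V` of dimension at least three.  For a good `T` the
factors are obtained by induction on the dimension (triangular factorisation in general
position); the remaining case is that of a transvection.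
-/

set_option autoImplicit false

universe v

namespace Cfsg.Agent.Lib.Helper16.RegUni

open Module

variable {K : Type*} [Field K]

/-- The inductive statement. -/
theorem main_ind (hK : ∃ c : Fin 4 → K, Function.Injective c) :
    ∀ (n : ℕ) (V : Type v) [AddCommGroup V] [Module K V] [FiniteDimensional K V],
      finrank K V = n + 1 → ∀ T : V →ₗ[K] V, LinearMap.det T = 1 → Good T →
      ∀ (φ : Module.Dual K V) (y : V), φ ≠ 0 → y ≠ 0 →
      ∃ (u w : V →ₗ[K] V) (e : V), T = u ∘ₗ w ∧ RU u ∧ RU w ∧ w e = e ∧ φ e ≠ 0 ∧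
        y ∉ LinearMap.range (u - 1) := by
  intro n
  induction n with
  | zero =>
    intro V _ _ _ hV T hdet _ φ y hφ hy
    rw [zero_add] at hV
    obtain ⟨c, hc, -⟩ := LinearMap.existsUnique_eq_smul_id_of_finrank_eq_one hV T
    have hc1 : c = 1 := by
      have := hdet
      rw [hc, LinearMap.det_smul, hV, pow_one, LinearMap.det_id, mul_one] at this
      exact this
    have hT : T = LinearMap.id := by rw [hc, hc1, one_smul]
    obtain ⟨e, he⟩ : ∃ e, φ e ≠ 0 := by
      by_contra h
      push Not at h
      exact hφ (LinearMap.ext h)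
    have hz : (LinearMap.id : V →ₗ[K] V) - 1 = 0 := sub_self _
    have hRU : RU (LinearMap.id : V →ₗ[K] V) := by
      refine ⟨?_, ?_⟩
      · rw [hz]; exact IsNilpotent.zero
      · rw [hz, LinearMap.ker_zero, finrank_top, hV]
    refine ⟨LinearMap.id, LinearMap.id, e, ?_, hRU, hRU, rfl, he, ?_⟩
    · rw [hT]; rfl
    · rw [hz, LinearMap.range_zero, Submodule.mem_bot]
      exact hy
  | succ n ih =>
    intro V _ _ _ hV T hdet hgood φ y hφ hy
    have hgood' : (∀ c : K, T ≠ c • LinearMap.id) ∧
        2 ≤ finrank K (LinearMap.range (T - 1 : V →ₗ[K] V)) := by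
      rcases hgood with h | h
      · omega
      · exact h
    obtain ⟨e, ψ, he, h1, hTee, hφe, hψy, ⟨k, hk0, hk1⟩, hS⟩ :=
      choice hK (by omega) T hdet hgood'.1 hgood'.2 φ y hφ hy
    have hfr := finrank_ker_psi (K := K) he
    have hdetS := det_schur T he h1
    have hymem : T e - e ∈ LinearMap.ker ψ :=
      LinearMap.mem_ker.2 (by rw [map_sub, h1, he, sub_self])
    have hφ' : (ψ ∘ₗ T ∘ₗ (LinearMap.ker ψ).subtype : Module.Dual K (LinearMap.ker ψ)) ≠ 0 := by
      intro h
      have := congrArg (fun f => f (⟨k, LinearMap.mem_ker.2 hk0⟩ : LinearMap.ker ψ)) h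
      exact hk1 this
    have hy' : (⟨T e - e, hymem⟩ : LinearMap.ker ψ) ≠ 0 := by
      intro h
      have := congrArg Subtype.val h
      exact hTee (sub_eq_zero.1 this)
    obtain ⟨u', w', e', hS', hu', hw', hwe', hφe', hyu'⟩ :=
      ih (LinearMap.ker ψ) (by omega) (schur T e ψ h1) (by rw [hdetS, hdet]) hS
        (ψ ∘ₗ T ∘ₗ (LinearMap.ker ψ).subtype) ⟨T e - e, hymem⟩ hφ' hy'
    have hU := RU_stepU T he h1 u' hu' hyu'
    have hW := RU_stepW T he w' hw' e' hwe' hφe'
    refine ⟨stepU T e ψ he u', stepW T e ψ he w', e, step_comp T he h1 u' w' hS', hU.1, hW.1,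
      hW.2, hφe, ?_⟩
    intro hmem
    exact hψy (LinearMap.mem_ker.1 (hU.2 hmem))

/-- A nilpotent endomorphism with prescribed kernel line, whose image contains the line when the
dimension is at least two. -/
theorem exists_reg_nilp :
    ∀ (m : ℕ) (H : Type v) [AddCommGroup H] [Module K H] [FiniteDimensional K H],
      finrank K H = m + 1 → ∀ a : H, a ≠ 0 →
      ∃ N : H →ₗ[K] H, IsNilpotent N ∧ LinearMap.ker N = K ∙ a ∧
        (1 ≤ m → a ∈ LinearMap.range N) := by
  intro m
  induction m with
  | zero =>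
    intro H _ _ _ hH a ha
    rw [zero_add] at hH
    refine ⟨0, IsNilpotent.zero, ?_, fun h => absurd h (by norm_num)⟩
    rw [LinearMap.ker_zero, eq_comm, eq_top_iff]
    intro w _
    obtain ⟨c, hc⟩ := (finrank_eq_one_iff_of_nonzero' a ha).1 hH w
    exact Submodule.mem_span_singleton.2 ⟨c, hc⟩
  | succ m ih =>
    intro H _ _ _ hH a ha
    have hlt : (K ∙ a) < ⊤ := by
      rw [lt_top_iff_ne_top]
      intro htop
      have := finrank_span_singleton (K := K) ha
      rw [htop, finrank_top] at this
      omega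
    obtain ⟨ψ₀, hψ₀, hψ₀le⟩ := Submodule.exists_le_ker_of_lt_top _ hlt
    obtain ⟨e₀, he₀⟩ : ∃ e₀, ψ₀ e₀ ≠ 0 := by
      by_contra h
      push Not at h
      exact hψ₀ (LinearMap.ext h)
    set ψ : Module.Dual K H := (ψ₀ e₀)⁻¹ • ψ₀ with hψ
    have he : ψ e₀ = 1 := by
      rw [hψ, LinearMap.smul_apply, smul_eq_mul, inv_mul_cancel₀ he₀]
    have hψa : ψ a = 0 := by
      rw [hψ, LinearMap.smul_apply, LinearMap.mem_ker.1 (hψ₀le (Submodule.mem_span_singleton_self a)),
        smul_zero]
    have hfr := finrank_ker_psi (K := K) he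
    have ha' : (⟨a, LinearMap.mem_ker.2 hψa⟩ : LinearMap.ker ψ) ≠ 0 :=
      fun h => ha (congrArg Subtype.val h)
    obtain ⟨N', hN', hkerN', hrange'⟩ := ih (LinearMap.ker ψ) (by omega) ⟨a, _⟩ ha'
    -- a vector outside the range of `N'`
    obtain ⟨y', hy'⟩ : ∃ y' : LinearMap.ker ψ, y' ∉ LinearMap.range N' := by
      by_contra hall
      push Not at hall
      have hsurj : Function.Surjective N' := fun x => hall x
      have hinj := LinearMap.injective_iff_surjective.2 hsurj
      have hmem : (⟨a, LinearMap.mem_ker.2 hψa⟩ : LinearMap.ker ψ) ∈ LinearMap.ker N' := by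
        rw [hkerN']; exact Submodule.mem_span_singleton_self _
      have := hinj ((LinearMap.mem_ker.1 hmem).trans (map_zero N').symm)
      exact ha' this
    have hy0 : ψ (y' : H) = 0 := psi_coe y'
    have hy'' : (⟨(y' : H), LinearMap.mem_ker.2 hy0⟩ : LinearMap.ker ψ) ∉ LinearMap.range N' := hy'
    refine ⟨extN e₀ ψ he (y' : H) N', extN_nilpotent he _ hy0 N' hN', ?_, fun _ => ?_⟩
    · rw [extN_ker he _ hy0 N' hy'', hkerN', Submodule.map_span, Set.image_singleton]
      rfl
    · by_cases hm : 1 ≤ m
      · obtain ⟨x, hx⟩ := hrange' hm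
        refine ⟨(x : H), ?_⟩
        rw [extN_sub, hx]
      · have hfr1 : finrank K (LinearMap.ker ψ) = 1 := by omega
        have hy'0 : y' ≠ 0 := fun h => hy' (by rw [h]; exact Submodule.zero_mem _)
        obtain ⟨c, hc⟩ := (finrank_eq_one_iff_of_nonzero' y' hy'0).1 hfr1 ⟨a, LinearMap.mem_ker.2 hψa⟩
        refine ⟨c • e₀, ?_⟩
        rw [map_smul, extN_e]
        exact congrArg Subtype.val hc

/-- Transvections are products of two regular unipotent maps. -/
theorem transvection_case {V : Type v} [AddCommGroup V] [Module K V] [FiniteDimensional K V]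
    (hn : 3 ≤ finrank K V) (a : V) (f : Module.Dual K V) (ha : a ≠ 0) (hf : f ≠ 0)
    (hfa : f a = 0) :
    ∃ u w : V →ₗ[K] V, (LinearMap.id + f.smulRight a) = u ∘ₗ w ∧ RU u ∧ RU w := by
  obtain ⟨e₀, he₀⟩ : ∃ e₀, f e₀ ≠ 0 := by
    by_contra h
    push Not at h
    exact hf (LinearMap.ext h)
  set e₁ := (f e₀)⁻¹ • e₀ with he₁
  have he : f e₁ = 1 := by rw [he₁, map_smul, smul_eq_mul, inv_mul_cancel₀ he₀]
  have hfr := finrank_ker_psi (K := K) he
  have ha' : (⟨a, LinearMap.mem_ker.2 hfa⟩ : LinearMap.ker f) ≠ 0 :=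
    fun h => ha (congrArg Subtype.val h)
  obtain ⟨N', hN', hkerN', hrange'⟩ :=
    exists_reg_nilp (K := K) (finrank K V - 2) (LinearMap.ker f) (by omega) ⟨a, _⟩ ha'
  obtain ⟨x₀, hx₀⟩ := hrange' (by omega)
  obtain ⟨y', hy'⟩ : ∃ y' : LinearMap.ker f, y' ∉ LinearMap.range N' := by
    by_contra hall
    push Not at hall
    have hsurj : Function.Surjective N' := fun x => hall x
    have hinj := LinearMap.injective_iff_surjective.2 hsurj
    have hmem : (⟨a, LinearMap.mem_ker.2 hfa⟩ : LinearMap.ker f) ∈ LinearMap.ker N' := by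
      rw [hkerN']; exact Submodule.mem_span_singleton_self _
    have := hinj ((LinearMap.mem_ker.1 hmem).trans (map_zero N').symm)
    exact ha' this
  have hy0 : f (y' : V) = 0 := psi_coe y'
  have hy'' : (⟨(y' : V), LinearMap.mem_ker.2 hy0⟩ : LinearMap.ker f) ∉ LinearMap.range N' := hy'
  set N : V →ₗ[K] V := extN e₁ f he (y' : V) N' with hNdef
  have hNnil : IsNilpotent N := extN_nilpotent he _ hy0 N' hN'
  have hNker : LinearMap.ker N = K ∙ a := by
    rw [hNdef, extN_ker he _ hy0 N' hy'', hkerN', Submodule.map_span, Set.image_singleton]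
    rfl
  have hfN : ∀ v, f (N v) = 0 := fun v => extN_mem he _ hy0 N' v
  have hNa : N a = 0 := by
    have : a ∈ LinearMap.ker N := by rw [hNker]; exact Submodule.mem_span_singleton_self _
    exact LinearMap.mem_ker.1 this
  have ha1 : finrank K (K ∙ a) = 1 := finrank_span_singleton ha
  -- the unit `1 + N`
  obtain ⟨U, hU⟩ := hNnil.isUnit_one_add
  set M : V →ₗ[K] V := N + f.smulRight a with hMdef
  have hMv : ∀ v, M v = N v + f v • a := fun v => by simp [hMdef]
  have hprod : (1 + N) * (LinearMap.id + f.smulRight a) = 1 + M := by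
    ext v
    simp only [Module.End.mul_apply, LinearMap.add_apply, Module.End.one_apply,
      LinearMap.id_apply, LinearMap.smulRight_apply, map_add, map_smul, hNa, smul_zero,
      add_zero, hMv]
    abel
  have hUinv : (↑U⁻¹ : Module.End K V) * (1 + N) = 1 := by rw [← hU]; exact U.inv_mul
  refine ⟨(↑U⁻¹ : Module.End K V), 1 + M, ?_, ?_, ?_⟩
  · change (LinearMap.id + f.smulRight a) = (↑U⁻¹ : Module.End K V) * (1 + M)
    rw [← hprod, ← mul_assoc, hUinv, one_mul]
  · -- `U⁻¹ - 1 = - U⁻¹ * N`
    have hsub : (↑U⁻¹ : Module.End K V) - 1 = -((↑U⁻¹ : Module.End K V) * N) := by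
      have : (↑U⁻¹ : Module.End K V) + (↑U⁻¹ : Module.End K V) * N = 1 := by
        rw [← hUinv, mul_add, mul_one]
      rw [← this]; abel
    have hcomm : Commute (↑U⁻¹ : Module.End K V) N := by
      have h1 : Commute (↑U : Module.End K V) N := by
        rw [hU]
        exact (Commute.one_left N).add_left (Commute.refl N)
      exact h1.units_inv_left
    refine ⟨?_, ?_⟩
    · rw [hsub]
      exact (hcomm.isNilpotent_mul_left hNnil).neg
    · have hk : LinearMap.ker ((↑U⁻¹ : Module.End K V) - 1) = LinearMap.ker N := by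
        ext v
        rw [LinearMap.mem_ker, LinearMap.mem_ker, hsub, LinearMap.neg_apply, neg_eq_zero,
          Module.End.mul_apply]
        constructor
        · intro h
          have h2 := congrArg (fun x => (↑U : Module.End K V) x) h
          simp only [map_zero] at h2
          rw [← Module.End.mul_apply, U.mul_inv, Module.End.one_apply] at h2
          exact h2
        · intro h
          rw [h, map_zero]
      rw [hk, hNker, ha1]
  · have hsub : (1 + M : Module.End K V) - 1 = M := add_sub_cancel_left 1 M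
    have hMM : M * M = N * N := by
      ext v
      simp only [Module.End.mul_apply, hMv, map_add, map_smul, hNa, smul_zero, add_zero, hfN,
        hfa, smul_eq_mul, mul_zero, zero_smul]
    refine ⟨?_, ?_⟩
    · rw [hsub]
      obtain ⟨k, hk⟩ := hNnil
      refine ⟨2 * k, ?_⟩
      rw [pow_mul, pow_two, hMM, ← pow_two, ← pow_mul, mul_comm, pow_mul, hk, zero_pow (by norm_num)]
    · have hk : LinearMap.ker ((1 + M : Module.End K V) - 1) = K ∙ a := by
        rw [hsub]
        ext v
        rw [LinearMap.mem_ker]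
        constructor
        · intro hv
          rw [hMv] at hv
          have hψ : f v = 0 := by
            by_contra hne
            apply hy'
            refine ⟨-(f v)⁻¹ • (projH e₁ f he v + f v • x₀), ?_⟩
            apply Subtype.ext
            rw [map_smul, map_add, map_smul, hx₀]
            simp only [Submodule.coe_smul, Submodule.coe_add]
            have h2 : (N' (projH e₁ f he v) : V) + f v • a = -(f v • (y' : V)) := by
              have h3 : N v = f v • (y' : V) + (N' (projH e₁ f he v) : V) := by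
                rw [hNdef, extN_apply]
              rw [h3] at hv
              rw [eq_neg_iff_add_eq_zero, ← hv]; abel
            rw [h2, neg_smul, smul_neg, neg_neg, smul_smul, inv_mul_cancel₀ hne, one_smul]
          rw [hψ, zero_smul, add_zero] at hv
          rw [← hNker]
          exact LinearMap.mem_ker.2 hv
        · intro hv
          obtain ⟨c, rfl⟩ := Submodule.mem_span_singleton.1 hv
          rw [map_smul, hMv, hNa, hfa, zero_smul, add_zero, smul_zero]
      rw [hk, ha1]

/-- The factorisation for every non-scalar endomorphism of determinant one. -/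
theorem exists_RU_factor (hK : ∃ c : Fin 4 → K, Function.Injective c)
    {V : Type v} [AddCommGroup V] [Module K V] [FiniteDimensional K V]
    (hn : 3 ≤ finrank K V) (T : V →ₗ[K] V) (hdet : LinearMap.det T = 1)
    (hns : ∀ c : K, T ≠ c • LinearMap.id) :
    ∃ u w : V →ₗ[K] V, T = u ∘ₗ w ∧ RU u ∧ RU w := by
  by_cases hr : 2 ≤ finrank K (LinearMap.range (T - 1 : V →ₗ[K] V))
  · have : Nontrivial V := Module.nontrivial_of_finrank_pos (R := K) (by omega)
    obtain ⟨y, hy⟩ := exists_ne (0 : V)
    obtain ⟨φ, hφy, -⟩ := Submodule.exists_le_ker_of_notMem (K := K) (p := ⊥) (v := y) (by simpa)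
    have hφ : φ ≠ 0 := fun h => hφy (by rw [h]; rfl)
    obtain ⟨u, w, e, hT, hu, hw, -, -, -⟩ := main_ind hK (finrank K V - 1) V (by omega) T hdet
      (Or.inr ⟨hns, hr⟩) φ y hφ hy
    exact ⟨u, w, hT, hu, hw⟩
  · -- `T - 1` has rank one
    obtain ⟨v₀, hv₀⟩ : ∃ v₀, T v₀ - v₀ ≠ 0 := by
      by_contra h
      push Not at h
      apply hns 1
      ext v
      rw [one_smul, LinearMap.id_apply]
      exact sub_eq_zero.1 (h v)
    set a := T v₀ - v₀ with ha
    have hamem : a ∈ LinearMap.range (T - 1 : V →ₗ[K] V) := ⟨v₀, by rw [sub_one_apply']⟩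
    have hfr1 : finrank K (LinearMap.range (T - 1 : V →ₗ[K] V)) = 1 := by
      have : finrank K (LinearMap.range (T - 1 : V →ₗ[K] V)) ≠ 0 := by
        intro h0
        have := Submodule.finrank_eq_zero.1 h0
        rw [this, Submodule.mem_bot] at hamem
        exact hv₀ hamem
      omega
    have hspan : ∀ v, ∃ c : K, c • a = T v - v := by
      intro v
      obtain ⟨c, hc⟩ := (finrank_eq_one_iff_of_nonzero'
        (⟨a, hamem⟩ : LinearMap.range (T - 1 : V →ₗ[K] V))
        (fun h => hv₀ (congrArg Subtype.val h))).1 hfr1 ⟨T v - v, ⟨v, by rw [sub_one_apply']⟩⟩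
      exact ⟨c, congrArg Subtype.val hc⟩
    obtain ⟨φ₀, hφ₀a, -⟩ := Submodule.exists_le_ker_of_notMem (K := K) (p := ⊥) (v := a)
      (by simpa using hv₀)
    set f : Module.Dual K V := (φ₀ a)⁻¹ • (φ₀ ∘ₗ (T - 1 : V →ₗ[K] V)) with hfdef
    have hfv : ∀ v, T v - v = f v • a := by
      intro v
      obtain ⟨c, hc⟩ := hspan v
      rw [hfdef, LinearMap.smul_apply, LinearMap.comp_apply, sub_one_apply', ← hc, map_smul,
        smul_eq_mul, smul_eq_mul, ← mul_assoc, mul_comm _ c, mul_assoc, inv_mul_cancel₀ hφ₀a,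
        mul_one]
    have hTeq : T = LinearMap.id + f.smulRight a := by
      ext v
      rw [LinearMap.add_apply, LinearMap.id_apply, LinearMap.smulRight_apply, ← hfv]
      abel
    have hf0 : f ≠ 0 := by
      intro h
      apply hv₀
      rw [ha, hfv v₀, h, LinearMap.zero_apply, zero_smul]
    have hfa : f a = 0 := by
      have hdet' : LinearMap.det (LinearMap.transvection f a) = 1 + f a :=
        LinearMap.transvection.det f a
      have hTt : T = LinearMap.transvection f a := by
        ext v
        rw [LinearMap.transvection.apply, hTeq, LinearMap.add_apply, LinearMap.id_apply,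
          LinearMap.smulRight_apply]
      rw [← hTt, hdet] at hdet'
      linear_combination -hdet'
    obtain ⟨u, w, huw, hu, hw⟩ := transvection_case hn a f hv₀ hf0 hfa
    exact ⟨u, w, hTeq.trans huw, hu, hw⟩

end Cfsg.Agent.Lib.Helper16.RegUni
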