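import Mathlib
import Cfsg.Agent.Lib.Helper16.RegUni.Avoid
import Cfsg.Agent.Lib.Helper16.RegUni.Step
import Cfsg.Agent.Lib.Helper16.RegUni.Main

/-!
# Regular unipotent maps are conjugate to the Jordan block; the matrix statement

A regular unipotent endomorphism has a basis in which its matrix is the Jordan block `J`
(ones on the diagonal and the superdiagonal).  Hence every non-scalar matrix of determinant one,
of size at least three over a field with at least four elements, is a product of two
`GL`-conjugates of `J`.
-/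

set_option autoImplicit false

namespace Cfsg.Agent.Lib.Helper16.RegUni

open Module

variable {K : Type*} [Field K] {V : Type*} [AddCommGroup V] [Module K V]

theorem ker_pow_finrank_le [FiniteDimensional K V] (N : V →ₗ[K] V)
    (hN : finrank K (LinearMap.ker N) = 1) :
    ∀ k : ℕ, finrank K (LinearMap.ker (N ^ k)) ≤ k := by
  intro k
  induction k with
  | zero =>
    have : LinearMap.ker (N ^ 0) = ⊥ := by
      rw [pow_zero]; exact LinearMap.ker_id
    rw [this, finrank_bot]
  | succ k ih =>
    have hmap : ∀ x ∈ LinearMap.ker (N ^ (k + 1)), N x ∈ LinearMap.ker (N ^ k) := by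
      intro x hx
      rw [LinearMap.mem_ker] at hx ⊢
      rw [← Module.End.mul_apply, ← pow_succ]
      exact hx
    have h1 := LinearMap.finrank_range_add_finrank_ker (N.restrict hmap)
    have h2 : finrank K (LinearMap.range (N.restrict hmap)) ≤ finrank K (LinearMap.ker (N ^ k)) :=
      Submodule.finrank_le _
    have h3 : finrank K (LinearMap.ker (N.restrict hmap)) ≤ 1 := by
      have hle : (LinearMap.ker (N.restrict hmap)).map (LinearMap.ker (N ^ (k + 1))).subtype ≤
          LinearMap.ker N := by
        rintro _ ⟨x, hx, rfl⟩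
        have hx' := LinearMap.mem_ker.1 (SetLike.mem_coe.1 hx)
        rw [LinearMap.mem_ker]
        have := congrArg Subtype.val hx'
        rw [LinearMap.restrict_coe_apply] at this
        exact this
      have := Submodule.finrank_mono hle
      rw [Submodule.finrank_map_subtype_eq, hN] at this
      exact this
    omega

/-- A regular unipotent map has a Jordan basis. -/
theorem RU_basis [FiniteDimensional K V] {n : ℕ} (hn : finrank K V = n) (u : V →ₗ[K] V)
    (hu : RU u) :
    ∃ b : Basis (Fin n) K V, ∀ j : Fin n,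
      u (b j) = b j + (if h : (j : ℕ) = 0 then 0 else b ⟨j - 1, by omega⟩) := by
  set N : V →ₗ[K] V := u - 1 with hNdef
  have hNn : N ^ n = 0 := by
    have h1 := LinearMap.aeval_self_charpoly N
    rw [(LinearMap.isNilpotent_iff_charpoly N).1 hu.1, hn, map_pow, Polynomial.aeval_X] at h1
    exact h1
  have hn1 : 1 ≤ n := by
    have := Submodule.finrank_le (LinearMap.ker N)
    rw [hu.2, hn] at this
    exact this
  have hNn1 : N ^ (n - 1) ≠ 0 := by
    intro h0
    have := ker_pow_finrank_le N hu.2 (n - 1)
    rw [h0, LinearMap.ker_zero, finrank_top, hn] at this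
    omega
  obtain ⟨v, hv⟩ : ∃ v, (N ^ (n - 1)) v ≠ 0 := by
    by_contra h
    push Not at h
    exact hNn1 (LinearMap.ext h)
  have hzero : ∀ k, n ≤ k → (N ^ k) v = 0 := by
    intro k hk
    obtain ⟨t, rfl⟩ := Nat.exists_eq_add_of_le hk
    rw [pow_add, Module.End.mul_apply, hNn, LinearMap.zero_apply]
  have hli : LinearIndependent K (fun k : Fin n => (N ^ (k : ℕ)) v) := by
    rw [Fintype.linearIndependent_iff]
    intro g hg
    have key : ∀ m : ℕ, ∀ i : Fin n, (i : ℕ) = m → g i = 0 := by
      intro m
      induction m using Nat.strong_induction_on with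
      | _ m ihm =>
        intro i him
        have h1 := congrArg (fun x => (N ^ (n - 1 - (i : ℕ))) x) hg
        simp only [map_sum, map_smul, map_zero] at h1
        rw [Finset.sum_eq_single i] at h1
        · rw [← Module.End.mul_apply, ← pow_add] at h1
          have hexp : n - 1 - (i : ℕ) + (i : ℕ) = n - 1 := by
            have := i.2; omega
          rw [hexp] at h1
          exact (smul_eq_zero.1 h1).resolve_right hv
        · intro j _ hji
          have hne : (j : ℕ) ≠ (i : ℕ) := fun h => hji (Fin.ext h)
          rcases lt_or_gt_of_ne hne with hlt | hgt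
          · rw [ihm (j : ℕ) (by omega) j rfl, zero_smul]
          · rw [← Module.End.mul_apply, ← pow_add, hzero _ (by have := i.2; omega), smul_zero]
        · intro h
          exact absurd (Finset.mem_univ i) h
    intro i
    exact key i i rfl
  have hli' : LinearIndependent K (fun j : Fin n => (N ^ (n - 1 - (j : ℕ))) v) := by
    have h := hli.comp Fin.rev Fin.rev_injective
    have e : (fun j : Fin n => (N ^ (n - 1 - (j : ℕ))) v) =
        (fun k : Fin n => (N ^ (k : ℕ)) v) ∘ Fin.rev := by
      funext j
      simp only [Function.comp_apply, Fin.val_rev]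
      congr 2
      omega
    rw [e]
    exact h
  haveI : Nonempty (Fin n) := ⟨⟨0, by omega⟩⟩
  let b : Basis (Fin n) K V := basisOfLinearIndependentOfCardEqFinrank hli' (by simp [hn])
  have hb : ∀ j : Fin n, b j = (N ^ (n - 1 - (j : ℕ))) v := by
    intro j
    simp [b]
  refine ⟨b, ?_⟩
  intro j
  have huN : ∀ x, u x = x + N x := fun x => by simp [hNdef]
  rw [huN, hb j]
  congr 1
  by_cases hj : (j : ℕ) = 0
  · rw [dif_pos hj, ← Module.End.mul_apply, ← pow_succ', hzero _ (by omega)]
  · rw [dif_neg hj, hb, ← Module.End.mul_apply, ← pow_succ']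
    congr 2
    have := j.2
    simp only
    omega

/-- The matrix of a regular unipotent map of `K^n` is conjugate to `J`. -/
theorem RU_conj {n : ℕ} (u : (Fin n → K) →ₗ[K] (Fin n → K)) (hu : RU u)
    (J : Matrix (Fin n) (Fin n) K)
    (hJ : ∀ i j : Fin n, J i j = if i = j then 1 else if j.val = i.val + 1 then 1 else 0) :
    ∃ P Q : Matrix (Fin n) (Fin n) K, P * Q = 1 ∧ Q * P = 1 ∧
      LinearMap.toMatrix' u = P * J * Q := by
  obtain ⟨b, hb⟩ := RU_basis (K := K) (Module.finrank_fin_fun K) u hu
  have hM : LinearMap.toMatrix b b u = J := by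
    ext i j
    rw [LinearMap.toMatrix_apply, hb j, hJ]
    by_cases hj : (j : ℕ) = 0
    · rw [dif_pos hj, add_zero, Basis.repr_self, Finsupp.single_apply]
      by_cases hij : i = j
      · rw [if_pos hij, if_pos hij.symm]
      · rw [if_neg hij, if_neg (Ne.symm hij), if_neg (by omega)]
    · rw [dif_neg hj, map_add, Finsupp.add_apply, Basis.repr_self, Basis.repr_self,
        Finsupp.single_apply, Finsupp.single_apply]
      by_cases hij : i = j
      · subst hij
        rw [if_pos rfl, if_pos rfl, if_neg (by
          intro h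
          have := congrArg Fin.val h
          simp only at this
          omega), add_zero]
      · rw [if_neg hij, if_neg (Ne.symm hij), zero_add]
        by_cases h2 : (j : ℕ) = (i : ℕ) + 1
        · rw [if_pos h2, if_pos (Fin.ext (by simp only; omega))]
        · rw [if_neg h2, if_neg (fun h => h2 (by
            have := congrArg Fin.val h
            simp only at this
            omega))]
  refine ⟨(Pi.basisFun K (Fin n)).toMatrix b, b.toMatrix (Pi.basisFun K (Fin n)), ?_, ?_, ?_⟩
  · exact Basis.toMatrix_mul_toMatrix_flip _ _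
  · exact Basis.toMatrix_mul_toMatrix_flip _ _
  · rw [← hM, basis_toMatrix_mul_linearMap_toMatrix_mul_basis_toMatrix,
      LinearMap.toMatrix_eq_toMatrix']

/-- Every non-scalar matrix of determinant one is a product of two conjugates of the regular
unipotent Jordan block (`n ≥ 3`, at least four scalars). -/
theorem core (hK : 4 ≤ Cardinal.mk K) (n : ℕ) (hn : 3 ≤ n) (J g : GL (Fin n) K)
    (hJ : ∀ i j : Fin n, (J : Matrix (Fin n) (Fin n) K) i j =
      if i = j then 1 else if j.val = i.val + 1 then 1 else 0)
    (hg : ¬ ∃ c : K, (g : Matrix (Fin n) (Fin n) K) = c • (1 : Matrix (Fin n) (Fin n) K))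
    (hdet : (g : Matrix (Fin n) (Fin n) K).det = 1) :
    ∃ x y : GL (Fin n) K, g = (x * J * x⁻¹) * (y * J * y⁻¹) := by
  have hK4 := four_scalars hK
  set T : (Fin n → K) →ₗ[K] (Fin n → K) := Matrix.toLin' (g : Matrix (Fin n) (Fin n) K) with hT
  have hdetT : LinearMap.det T = 1 := by rw [hT, LinearMap.det_toLin', hdet]
  have hns : ∀ c : K, T ≠ c • LinearMap.id := by
    intro c hc
    apply hg
    refine ⟨c, ?_⟩
    have := congrArg LinearMap.toMatrix' hc
    rw [hT, LinearMap.toMatrix'_toLin', map_smul, LinearMap.toMatrix'_id] at this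
    exact this
  obtain ⟨u, w, huw, hu, hw⟩ :=
    exists_RU_factor hK4 (by rw [Module.finrank_fin_fun]; exact hn) T hdetT hns
  obtain ⟨P₁, Q₁, a1, a2, a3⟩ := RU_conj u hu (J : Matrix (Fin n) (Fin n) K) hJ
  obtain ⟨P₂, Q₂, b1, b2, b3⟩ := RU_conj w hw (J : Matrix (Fin n) (Fin n) K) hJ
  refine ⟨⟨P₁, Q₁, a1, a2⟩, ⟨P₂, Q₂, b1, b2⟩, ?_⟩
  apply Units.ext
  have hg' : (g : Matrix (Fin n) (Fin n) K) = LinearMap.toMatrix' T := by
    rw [hT, LinearMap.toMatrix'_toLin']
  rw [hg', huw, LinearMap.toMatrix'_comp, a3, b3]
  rfl

end Cfsg.Agent.Lib.Helper16.RegUni
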